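import Cfsg.Agent.H34.FusionPStable

/-! Stability is detected in the normalisers of non-cyclic subgroups. -/

set_option autoImplicit false

namespace Cfsg.Agent.H34

open Cfsg Cfsg.FusionSystem

/-- Stability is detected in the normalisers of non-cyclic fully normalised subgroups. -/
theorem stable_iff_local_noncyclic {Ω : Type*} [Group Ω] {S : Subgroup Ω} [Finite S] {F : FusionSystem S}
    {p : ℕ} [Fact p.Prime] (hS : IsPGroup p S) (hF : F.IsSaturated p) :
    (∀ Q, F.IsFullyNormalized Q → H96.StableAt F p Q) ↔
      ∀ R, F.IsFullyNormalized R → ¬ IsCyclic R →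
        ∀ N : FusionSystem (normalizerIn S R), F.IsNormalizerSystem R N →
          ∀ Q, N.IsFullyNormalized Q → H96.StableAt N p Q := by
  constructor
  · intro h R hR _ N hN Q hQ χ hχ hquad
    have hQN := hQ.1
    have hQS := hQN.trans (H93.normalizerIn_le S R)
    have := H93.finite_of_le (S := S) hQS
    have : Finite (MulAut Q) := Finite.of_injective (fun e : MulAut Q => (e : Q → Q)) DFunLike.coe_injective
    have hle : N.autGroup Q ≤ F.autGroup Q := fun γ hγ => by
      have := (H96.mem_autGroup N hQN).1 hγ
      rw [hN Q] at this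
      exact (H96.mem_autGroup F hQS).2 this.1
    obtain ⟨Q', hQQ', hQ'⟩ := H94.exists_fullyNormalized (F := F) hQS
    exact H96.pCore_inf_le hle p hχ (H96.stableAt_of_isConj hQQ' (h Q' hQ') χ (hle hχ) hquad)
  · intro h Q hQ
    by_cases hc : IsCyclic Q
    · exact stableAt_of_cyclic hS F hQ.1 hc
    have hQS := hQ.1
    set N := H93.normalizerSystem F Q hQS
    have hN : F.IsNormalizerSystem Q N := fun P => rfl
    have hQN : Q ≤ normalizerIn S Q := H93.le_normalizerIn hQS
    have := H93.finite_of_le (S := S) (H93.normalizerIn_le S Q)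
    have := H93.finite_of_le (S := S) hQS
    have heq : N.autGroup Q = F.autGroup Q := by
      refine le_antisymm (fun γ hγ => ?_) fun α hα => ?_
      · exact (H96.mem_autGroup F hQS).2 ((H96.mem_autGroup N hQN).1 hγ).1
      · have hm := (H96.mem_autGroup F hQS).1 hα
        have hsup : Q ⊔ Q ≤ Q := sup_le le_rfl le_rfl
        refine (H96.mem_autGroup N hQN).2 ⟨hm, hQN, fun x => hQN (α x).2,
          H96.res (Q.subtype.comp α.toMonoidHom) hsup, H96.res_mem F hm hsup, fun x => rfl, ?_⟩
        rw [H96.map_subgroupOf_eq_range _ le_sup_right]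
        exact H96.range_eq_of_forall_mem F (H96.res_mem F (H96.res_mem F hm hsup) _) fun x => (α _).2
    obtain ⟨Q', hQQ', hQ'⟩ := H94.exists_fullyNormalized (F := N) hQN
    intro χ hχ hquad
    have h1 := H96.stableAt_of_isConj hQQ' (h Q hQ hc N hN Q' hQ') χ (heq ▸ hχ) hquad
    rwa [heq] at h1

end Cfsg.Agent.H34
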