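import Cfsg.Agent.H34.Conj
import Cfsg.Agent.H34.Thompson

/-! Members of `𝒜(G)` as best offenders. -/

set_option autoImplicit false

namespace Cfsg.Agent.H34

open Subgroup
open Cfsg

variable {G : Type*} [Group G] {p : ℕ} {V A : Subgroup G}

/-- A member of `𝒜(G)` meets `V` in its fixed points. -/
theorem fixed_le_of_mem_max [Finite G] (hV : IsElementaryAbelian p V)
    (hA : A ∈ maxElementaryAbelianSubgroups p G) : V ⊓ centralizer (A : Set G) ≤ A :=
  le_of_mem_max hA (isElementaryAbelian_mono hV inf_le_left)
    (le_centralizer_iff.1 inf_le_right)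

/-- The fixed points of a member of `𝒜(G)` are its intersection with `V`. -/
theorem fixed_eq_inf_of_mem_max [Finite G] (hV : IsElementaryAbelian p V)
    (hA : A ∈ maxElementaryAbelianSubgroups p G) : V ⊓ centralizer (A : Set G) = A ⊓ V :=
  le_antisymm (le_inf (fixed_le_of_mem_max hV hA) inf_le_left)
    (le_inf inf_le_right (inf_le_left.trans (le_centralizer_iff_isMulCommutative.2 hA.1.1)))

/-- Elementary abelian subgroups of largest order are best offenders. -/
theorem isBestOffenderOn_of_mem_max [Finite G] (hV : IsElementaryAbelian p V)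
    (hA : A ∈ maxElementaryAbelianSubgroups p G) : IsBestOffenderOn p V A := by
  haveI := hV.1
  refine ⟨fun B hB => ?_, ?_, fun a ha => by rw [hA.1.2 a ha]; exact one_mem _⟩
  · set D := V ⊓ centralizer (B : Set G)
    have hBD : IsElementaryAbelian p (B ⊔ D) :=
      isElementaryAbelian_sup (isElementaryAbelian_mono hA.1 hB)
        (isElementaryAbelian_mono hV inf_le_left) (le_centralizer_iff.1 inf_le_right)
    calc Nat.card B * Nat.card D ≤ Nat.card ↥(B ⊔ D) * Nat.card ↥(B ⊓ D) := card_mul_card_le B D
      _ ≤ Nat.card A * Nat.card ↥(V ⊓ centralizer (A : Set G)) := by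
          refine Nat.mul_le_mul (hA.2 _ hBD) (card_le_of_le ?_)
          rw [fixed_eq_inf_of_mem_max hV hA]
          exact le_inf (inf_le_left.trans hB) (inf_le_right.trans inf_le_left)
  · haveI := hA.1.1
    rw [Subgroup.commutator_self_eq_bot_iff.2 hA.1.1]
    exact bot_le

/-- The replacement of a member of `𝒜(G)` relative to a normalised elementary abelian subgroup. -/
theorem replacement_of_mem_max [Finite G] (hV : IsElementaryAbelian p V)
    (hAV : A ≤ normalizer (V : Set G)) (hA : A ∈ maxElementaryAbelianSubgroups p G) :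
    (⁅V, A⁆ ⊔ (A ⊓ centralizer ((⁅V, A⁆ : Subgroup G) : Set G))) ∈
      maxElementaryAbelianSubgroups p G := by
  haveI := hV.1
  obtain ⟨hmax, hab, -⟩ := isBestOffenderOn_of_mem_max hV hA
  obtain ⟨h1, h2⟩ := replacement hAV hab hmax (le_refl V)
  set X := ⁅V, A⁆
  set B := A ⊓ centralizer (X : Set G)
  set C := V ⊓ centralizer (A : Set G)
  have hXV : X ≤ V := Subgroup.le_normalizer_iff_commutator_le_left.1 hAV
  have hCB : C ≤ B := le_inf (fixed_le_of_mem_max hV hA)
    (inf_le_left.trans ((le_centralizer V).trans (centralizer_le hXV)))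
  have hsup : X ⊔ B = (V ⊓ centralizer (B : Set G)) ⊔ B := by
    rw [h2, sup_assoc, sup_of_le_right hCB]
  refine mem_max_of_card_le hA (isElementaryAbelian_sup (isElementaryAbelian_mono hV hXV)
    (isElementaryAbelian_mono hA.1 inf_le_left) (le_centralizer_iff.1 inf_le_right)) ?_
  have hle := card_mul_card_le (V ⊓ centralizer (B : Set G)) B
  rw [← hsup] at hle
  have hinf : (V ⊓ centralizer (B : Set G)) ⊓ B ≤ C := by
    rw [show C = A ⊓ V from fixed_eq_inf_of_mem_max hV hA]
    exact le_inf (inf_le_right.trans inf_le_left) (inf_le_left.trans inf_le_left)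
  have h3 : offNum V B ≤ Nat.card ↥(X ⊔ B) * Nat.card C := by
    unfold offNum
    rw [mul_comm]
    exact hle.trans (Nat.mul_le_mul_left _ (card_le_of_le hinf))
  exact Nat.le_of_mul_le_mul_right (h1.ge.trans h3) Nat.card_pos

end Cfsg.Agent.H34
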