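import Cfsg.Agent.H35.QuadraticPair

/-!
Two quadratic elements on an irreducible module: the generated group contains elements acting as the
standard generators of `SL(2,p)` on every line of a decomposition `S ⊕ i S`; here for `p = 3`.
-/

set_option autoImplicit false

namespace Cfsg.Agent.H34

open Matrix
open Cfsg.Agent.H35

variable {H : Type*} [Group H]

/-- The Weyl element and the element of order four built from a standard pair in characteristic three. -/
theorem standard_pair_three {K : Type*} [Field K] [CharP K 3] (g₁ g₂ : SpecialLinearGroup (Fin 2) K)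
    (e₁ e₂ : Fin 2 → K) (h11 : (g₁ : Matrix (Fin 2) (Fin 2) K) *ᵥ e₁ = e₁)
    (h12 : (g₁ : Matrix (Fin 2) (Fin 2) K) *ᵥ e₂ = e₂ + e₁)
    (h21 : (g₂ : Matrix (Fin 2) (Fin 2) K) *ᵥ e₁ = e₁ + e₂)
    (h22 : (g₂ : Matrix (Fin 2) (Fin 2) K) *ᵥ e₂ = e₂) :
    ((g₁⁻¹ * g₂ * g₁⁻¹ : SpecialLinearGroup (Fin 2) K) : Matrix (Fin 2) (Fin 2) K) *ᵥ e₁ = e₂ ∧
    ((g₁⁻¹ * g₂ * g₁⁻¹ : SpecialLinearGroup (Fin 2) K) : Matrix (Fin 2) (Fin 2) K) *ᵥ e₂ = -e₁ ∧
    ((g₂ * g₁ : SpecialLinearGroup (Fin 2) K) : Matrix (Fin 2) (Fin 2) K) *ᵥ e₁ = e₁ + e₂ ∧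
    ((g₂ * g₁ : SpecialLinearGroup (Fin 2) K) : Matrix (Fin 2) (Fin 2) K) *ᵥ e₂ = e₁ - e₂ := by
  have key : ∀ (A B : Matrix.SpecialLinearGroup (Fin 2) K) (v : Fin 2 → K),
      ((A * B : Matrix.SpecialLinearGroup (Fin 2) K) : Matrix (Fin 2) (Fin 2) K) *ᵥ v =
        (A : Matrix (Fin 2) (Fin 2) K) *ᵥ ((B : Matrix (Fin 2) (Fin 2) K) *ᵥ v) := fun A B v =>
    (mulVec_mulVec v (A : Matrix (Fin 2) (Fin 2) K) (B : Matrix (Fin 2) (Fin 2) K)).symm
  have hinv : ∀ v : Fin 2 → K, ((g₁⁻¹ : Matrix.SpecialLinearGroup (Fin 2) K) : Matrix (Fin 2) (Fin 2) K) *ᵥ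
      ((g₁ : Matrix (Fin 2) (Fin 2) K) *ᵥ v) = v := fun v => by
    refine (key _ _ v).symm.trans ?_
    rw [inv_mul_cancel]
    exact one_mulVec v
  set M := ((g₁⁻¹ : Matrix.SpecialLinearGroup (Fin 2) K) : Matrix (Fin 2) (Fin 2) K) with hM
  have h1' : M *ᵥ e₁ = e₁ := by
    have := hinv e₁
    rwa [h11] at this
  have h2' : M *ᵥ e₂ = e₂ - e₁ := by
    have := hinv e₂
    rw [h12, mulVec_add, h1'] at this
    exact eq_sub_iff_add_eq.2 this
  have hwi : ((g₁⁻¹ * g₂ * g₁⁻¹ : Matrix.SpecialLinearGroup (Fin 2) K) : Matrix (Fin 2) (Fin 2) K) *ᵥ e₁ = e₂ := by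
    refine (key _ _ _).trans ((key _ _ _).trans ?_)
    rw [← hM, h1', h21, mulVec_add, h1', h2']
    abel
  have hwi' : ((g₁⁻¹ * g₂ * g₁⁻¹ : Matrix.SpecialLinearGroup (Fin 2) K) : Matrix (Fin 2) (Fin 2) K) *ᵥ e₂ = -e₁ := by
    refine (key _ _ _).trans ((key _ _ _).trans ?_)
    rw [← hM, h2', mulVec_sub, h22, h21, show e₂ - (e₁ + e₂) = -e₁ by abel, mulVec_neg, h1']
  have hj1 : ((g₂ * g₁ : Matrix.SpecialLinearGroup (Fin 2) K) : Matrix (Fin 2) (Fin 2) K) *ᵥ e₁ = e₁ + e₂ := by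
    refine (key _ _ _).trans ?_
    rw [h11, h21]
  have hj2 : ((g₂ * g₁ : SpecialLinearGroup (Fin 2) K) : Matrix (Fin 2) (Fin 2) K) *ᵥ e₂ = e₁ - e₂ := by
    refine (key _ _ _).trans ?_
    rw [h12, mulVec_add, h22, h21]
    funext k
    have h3 : (3 : K) = 0 := by
      exact_mod_cast CharP.cast_eq_zero K 3
    simp only [Pi.add_apply, Pi.sub_apply]
    linear_combination (e₂ k) * h3
  exact ⟨hwi, hwi', hj1, hj2⟩

/-- Elements acting as the standard generators of `SL(2,3)`. -/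
theorem exists_standard_elements {W : Type*} [AddCommGroup W] [Finite W] {p : ℕ} [Fact p.Prime]
    (hp : p = 3) (hW : ∀ x : W, p • x = 0) [Finite H] (ρ : H →* AddMonoid.End W) (a b : H)
    (hab : Subgroup.closure {a, b} = ⊤) (ha : ∀ x, ρ a (ρ a x - x) = ρ a x - x)
    (hb : ∀ x, ρ b (ρ b x - x) = ρ b x - x) (hnp : ¬ ∀ h : H, ∃ k : ℕ, ρ (h ^ (p ^ k)) = 1)
    (hirr : ∀ S : AddSubgroup W, (∀ h : H, ∀ s ∈ S, ρ h s ∈ S) → S = ⊥ ∨ S = ⊤) :
    ∃ (c i j : H) (S : AddSubgroup W), (∀ y, ∃ s ∈ S, ∃ t ∈ S, y = s + ρ i t) ∧ S ≠ ⊥ ∧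
      ∀ s ∈ S, ρ c s = s ∧ ρ c (ρ i s) = ρ i s + s ∧ ρ i (ρ i s) = -s ∧
        ρ j s = s + ρ i s ∧ ρ j (ρ i s) = s - ρ i s := by
  have hp2 : p ≠ 2 := by omega
  have hmemab : ∀ (T : Submonoid H), a ∈ T → b ∈ T → ∀ h, h ∈ T := by
    intro T hTa hTb h
    have hc : h ∈ (Subgroup.closure ({a, b} : Set H)).toSubmonoid := by rw [hab]; exact Subgroup.mem_top h
    rw [Subgroup.closure_toSubmonoid_of_finite] at hc
    exact (Submonoid.closure_le.2 (by rintro y (rfl | rfl) <;> assumption)) hc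
  have hinv : ∀ S : AddSubgroup W, (∀ s ∈ S, ρ a s ∈ S) → (∀ s ∈ S, ρ b s ∈ S) →
      ∀ h : H, ∀ s ∈ S, ρ h s ∈ S := fun S hSa hSb =>
    hmemab
      { carrier := {h | ∀ s ∈ S, ρ h s ∈ S}
        one_mem' := fun s hs => by simpa using hs
        mul_mem' := fun {g h} hg hh s hs => by simpa using hg _ (hh s hs) } hSa hSb
  set u : AddMonoid.End W := ρ a - 1 with hu
  set w' : AddMonoid.End W := ρ b - 1 with hw'
  have hu_apply : ∀ x, u x = ρ a x - x := fun x => rfl
  have hw_apply : ∀ x, w' x = ρ b x - x := fun x => rfl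
  have huu : ∀ x, u (u x) = 0 := fun x => by rw [hu_apply, hu_apply, ha, sub_self]
  have hww : ∀ x, w' (w' x) = 0 := fun x => by rw [hw_apply, hw_apply, hb, sub_self]
  set z : AddMonoid.End W := u * w' + w' * u with hz
  have hz_apply : ∀ x, z x = u (w' x) + w' (u x) := fun x => rfl
  have hzu : ∀ x, u (z x) = z (u x) := fun x => by
    rw [hz_apply, hz_apply, map_add, huu, huu, map_zero, zero_add, add_zero]
  have hzw : ∀ x, w' (z x) = z (w' x) := fun x => by
    rw [hz_apply, hz_apply, map_add, hww, hww, map_zero, zero_add, add_zero]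
  have hcomm : ∀ h : H, ∀ x, ρ h (z x) = z (ρ h x) :=
    hmemab
      { carrier := {h | ∀ x, ρ h (z x) = z (ρ h x)}
        one_mem' := fun x => by simp
        mul_mem' := fun {g h} hg hh x => by
          simp only [map_mul, AddMonoid.End.coe_mul, Function.comp_apply]
          rw [hh, hg] }
      (fun x => by
        have h := hzu x
        rw [hu_apply, hu_apply, map_sub] at h
        exact sub_left_inj.1 h)
      (fun x => by
        have h := hzw x
        rw [hw_apply, hw_apply, map_sub] at h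
        exact sub_left_inj.1 h)
  have hρtriv : (∀ x, u x = 0) → (∀ x, w' x = 0) → False := fun hu0 hw0 => hnp (by
    refine fun h => ⟨0, ?_⟩
    rw [pow_zero, pow_one]
    exact hmemab
      { carrier := {h | ρ h = 1}
        one_mem' := map_one ρ
        mul_mem' := fun {g h} (hg : ρ g = 1) (hh : ρ h = 1) => by
          show ρ (g * h) = 1
          rw [map_mul, hg, hh, one_mul] }
      (AddMonoidHom.ext fun x => sub_eq_zero.1 (hu0 x))
      (AddMonoidHom.ext fun x => sub_eq_zero.1 (hw0 x)) h)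
  -- `z` is not zero
  have key : ∀ (e f : AddMonoid.End W) (c d : H), (∀ x, e x = ρ c x - x) → (∀ x, f x = ρ d x - x) →
      (∀ x, e (e x) = 0) → (∀ x, e (f x) + f (e x) = 0) →
      (∀ S : AddSubgroup W, (∀ s ∈ S, ρ c s ∈ S) → (∀ s ∈ S, ρ d s ∈ S) → S = ⊥ ∨ S = ⊤) →
      ∀ x, e x = 0 := by
    intro e f c d he hf hee hef hir x
    have hS : (e : W →+ W).ker = ⊥ ∨ (e : W →+ W).ker = ⊤ := by
      refine hir _ (fun s hs => ?_) (fun s hs => ?_)
      · have hs' : e s = 0 := hs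
        rw [he] at hs'
        rw [sub_eq_zero.1 hs']
        exact hs
      · have hs' : e s = 0 := hs
        show e (ρ d s) = 0
        have : ρ d s = f s + s := by rw [hf]; abel
        rw [this, map_add, hs', add_zero]
        have h := hef s
        rwa [hs', map_zero, add_zero] at h
    rcases hS with h | h
    · have : e x ∈ (e : W →+ W).ker := hee x
      rwa [h, AddSubgroup.mem_bot] at this
    · exact (h ▸ AddSubgroup.mem_top x : x ∈ (e : W →+ W).ker)
  have hz0 : z ≠ 0 := by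
    intro h0
    have h0' : ∀ x, u (w' x) + w' (u x) = 0 := fun x => by rw [← hz_apply, h0]; rfl
    exact hρtriv
      (key u w' a b hu_apply hw_apply huu h0' fun S h1 h2 => hirr S (hinv S h1 h2))
      (key w' u b a hw_apply hu_apply hww (fun x => by rw [add_comm]; exact h0' x)
        fun S h1 h2 => hirr S (hinv S h2 h1))
  -- the field generated by `z`
  let K := Subring.closure ({z} : Set (AddMonoid.End W))
  have hKcent : ∀ k : K, ∀ h : H, ∀ x, ρ h ((k : AddMonoid.End W) x) = (k : AddMonoid.End W) (ρ h x) := by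
    intro k h
    have hle : K ≤ Subring.centralizer {ρ h} := Subring.closure_le.2 (by
      rintro _ rfl
      refine Subring.mem_centralizer_iff.2 ?_
      rintro _ rfl
      exact AddMonoidHom.ext fun x => hcomm h x)
    intro x
    exact DFunLike.congr_fun (Subring.mem_centralizer_iff.1 (hle k.2) (ρ h) rfl) x
  letI : CommRing K := Subring.closureCommRingOfComm (by rintro _ rfl _ rfl; rfl)
  have hWne : Nontrivial W := by
    by_contra hnt
    rw [not_nontrivial_iff_subsingleton] at hnt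
    exact hz0 (AddMonoidHom.ext fun x => Subsingleton.elim _ _)
  have hKnt : Nontrivial K := by
    refine ⟨⟨1, 0, fun h => ?_⟩⟩
    obtain ⟨x, y, hxy⟩ := hWne
    have h' : ∀ t : W, t = 0 := fun t => DFunLike.congr_fun (congrArg Subtype.val h) t
    exact hxy ((h' x).trans (h' y).symm)
  have hKker : ∀ k : K, k ≠ 0 → ∀ x, (k : AddMonoid.End W) x = 0 → x = 0 := by
    intro k hk x hx
    have hkerinv : ∀ h : H, ∀ s ∈ ((k : AddMonoid.End W) : W →+ W).ker,
        ρ h s ∈ ((k : AddMonoid.End W) : W →+ W).ker := fun h s hs => by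
      show (k : AddMonoid.End W) (ρ h s) = 0
      rw [← hKcent k h s, show (k : AddMonoid.End W) s = 0 from hs, map_zero]
    rcases hirr _ hkerinv with h | h
    · have : x ∈ ((k : AddMonoid.End W) : W →+ W).ker := hx
      rwa [h, AddSubgroup.mem_bot] at this
    · refine absurd (Subtype.ext (AddMonoidHom.ext fun y => ?_) : k = 0) hk
      have hy : y ∈ ((k : AddMonoid.End W) : W →+ W).ker := by rw [h]; exact AddSubgroup.mem_top y
      exact hy
  have : NoZeroDivisors K := ⟨fun {k l} hkl => by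
    by_contra h
    push Not at h
    refine h.2 (Subtype.ext (AddMonoidHom.ext fun y => hKker k h.1 _ ?_))
    exact DFunLike.congr_fun (congrArg Subtype.val hkl) y⟩
  have : IsDomain K := NoZeroDivisors.to_isDomain K
  have : Finite (AddMonoid.End W) := Finite.of_injective _ DFunLike.coe_injective
  have : Finite K := Subtype.finite
  letI : Field K := (Finite.isField_of_domain K).toField
  have hKp : CharP K p := (CharP.charP_iff_prime_eq_zero (Fact.out : p.Prime)).2 (by
    refine Subtype.ext (AddMonoidHom.ext fun x => ?_)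
    show ((p : K) : AddMonoid.End W) x = 0
    rw [show ((p : K) : AddMonoid.End W) = (p : AddMonoid.End W) from map_natCast K.subtype p,
      AddMonoid.End.natCast_apply, hW])
  let lam : K := ⟨z, Subring.subset_closure rfl⟩
  have hlam : lam ≠ 0 := fun h => hz0 (congrArg Subtype.val h)
  -- a fixed vector of `a` and its image
  obtain ⟨v, hv0, hv⟩ : ∃ v : W, v ≠ 0 ∧ u v = 0 := by
    by_cases hall : ∀ x, u x = 0
    · obtain ⟨x, hx⟩ := exists_ne (0 : W)
      exact ⟨x, hx, hall x⟩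
    · push Not at hall
      obtain ⟨x, hx⟩ := hall
      exact ⟨u x, hx, huu x⟩
  set v' := w' v with hv'
  have hzv : u v' = z v := by rw [hz_apply, hv, map_zero, add_zero]
  let Φ : (Fin 2 → K) →+ W :=
    { toFun := fun x => (x 0 : AddMonoid.End W) v + (x 1 : AddMonoid.End W) v'
      map_zero' := add_zero 0
      map_add' := fun x y => by
        show ((x 0 : AddMonoid.End W) v + (y 0 : AddMonoid.End W) v) +
          ((x 1 : AddMonoid.End W) v' + (y 1 : AddMonoid.End W) v') = _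
        abel }
  have hΦ : ∀ x, Φ x = (x 0 : AddMonoid.End W) v + (x 1 : AddMonoid.End W) v' := fun x => rfl
  have hKu : ∀ (k : K) x, u ((k : AddMonoid.End W) x) = (k : AddMonoid.End W) (u x) := fun k x => by
    rw [hu_apply, hu_apply, hKcent, map_sub]
  have hΦinj : Function.Injective Φ := by
    refine (injective_iff_map_eq_zero Φ).2 fun x hx => ?_
    have hx1 : x 1 = 0 := by
      by_contra h
      have h1 := congrArg u hx
      rw [hΦ, map_add, map_zero, hKu, hKu, hv, map_zero, zero_add, hzv] at h1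
      exact hv0 (hKker lam hlam v (hKker (x 1) h _ h1))
    rw [hΦ, hx1] at hx
    replace hx : (x 0 : AddMonoid.End W) v + 0 = 0 := hx
    rw [add_zero] at hx
    have hx0 : x 0 = 0 := by
      by_contra h
      exact hv0 (hKker (x 0) h v hx)
    funext i; fin_cases i <;> assumption
  have hadd : ∀ (k l : K) (y : W), ((k + l : K) : AddMonoid.End W) y =
      (k : AddMonoid.End W) y + (l : AddMonoid.End W) y := fun _ _ _ => rfl
  have hmul : ∀ (k : K) (y : W), ((k * lam : K) : AddMonoid.End W) y =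
      (k : AddMonoid.End W) (z y) := fun _ _ => rfl
  -- intertwining
  let T : Subgroup (Matrix.SpecialLinearGroup (Fin 2) K) :=
    { carrier := {g | ∃ h : H, ∀ x, ρ h (Φ x) = Φ ((g : Matrix (Fin 2) (Fin 2) K) *ᵥ x)}
      one_mem' := ⟨1, fun x => by simp⟩
      mul_mem' := by
        rintro g g' ⟨h, hh⟩ ⟨h', hh'⟩
        refine ⟨h * h', fun x => ?_⟩
        rw [map_mul, Matrix.SpecialLinearGroup.coe_mul, ← mulVec_mulVec]
        show ρ h (ρ h' (Φ x)) = _
        rw [hh', hh]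
      inv_mem' := by
        rintro g ⟨h, hh⟩
        refine ⟨h⁻¹, fun x => ?_⟩
        set y := ((g⁻¹ : Matrix.SpecialLinearGroup (Fin 2) K) : Matrix (Fin 2) (Fin 2) K) *ᵥ x with hy
        have hgy : (g : Matrix (Fin 2) (Fin 2) K) *ᵥ y = x := by
          rw [hy, mulVec_mulVec, ← Matrix.SpecialLinearGroup.coe_mul, mul_inv_cancel,
            Matrix.SpecialLinearGroup.coe_one, one_mulVec]
        calc ρ h⁻¹ (Φ x) = ρ h⁻¹ (ρ h (Φ y)) := by rw [hh, hgy]
          _ = ρ (h⁻¹ * h) (Φ y) := by rw [map_mul]; rfl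
          _ = Φ y := by simp }
  have hT : Subgroup.closure ({upperUni lam, lowerUni 1} : Set (Matrix.SpecialLinearGroup (Fin 2) K)) ≤ T := by
    refine (Subgroup.closure_le _).2 ?_
    rintro g (rfl | rfl)
    · refine ⟨a, fun x => ?_⟩
      have hav : ρ a v = v := sub_eq_zero.1 hv
      have hav' : ρ a v' = v' + z v := by rw [← hzv, hu_apply]; abel
      rw [hΦ, map_add, hKcent, hKcent, hav, hav', hΦ, map_add]
      simp only [coe_upperUni, mulVec, dotProduct, Fin.sum_univ_two, of_apply, cons_val_zero, cons_val_one]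
      have e : (lam * x 1 : K) = x 1 * lam := mul_comm _ _
      simp only [one_mul, zero_mul, zero_add, e, hadd, hmul]
      abel
    · refine ⟨b, fun x => ?_⟩
      have hbv : ρ b v = v + v' := by rw [hv', hw_apply]; abel
      have hbv' : ρ b v' = v' := sub_eq_zero.1 (hww v)
      rw [hΦ, map_add, hKcent, hKcent, hbv, hbv', hΦ, map_add]
      simp only [coe_lowerUni, mulVec, dotProduct, Fin.sum_univ_two, of_apply, cons_val_zero, cons_val_one]
      simp only [one_mul, zero_mul, add_zero, hadd]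
      abel
  -- the image of `Φ` is everything
  have hrange : (Φ : (Fin 2 → K) →+ W).range = ⊤ := by
    refine (hirr _ (hinv _ ?_ ?_)).resolve_left ?_
    · rintro _ ⟨x, rfl⟩
      obtain ⟨h, hh⟩ := hT (Subgroup.subset_closure (Or.inl rfl))
      have hav : ρ a v = v := sub_eq_zero.1 hv
      have hav' : ρ a v' = v' + z v := by rw [← hzv, hu_apply]; abel
      refine ⟨![x 0 + x 1 * lam, x 1], ?_⟩
      simp only [hΦ, map_add, hKcent, hav, hav', Matrix.cons_val_zero, Matrix.cons_val_one, hadd, hmul]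
      abel
    · rintro _ ⟨x, rfl⟩
      have hbv : ρ b v = v + v' := by rw [hv', hw_apply]; abel
      have hbv' : ρ b v' = v' := sub_eq_zero.1 (hww v)
      refine ⟨![x 0, x 1 + x 0], ?_⟩
      simp only [hΦ, map_add, hKcent, hbv, hbv', Matrix.cons_val_zero, Matrix.cons_val_one, hadd]
      abel
    · intro h0
      have h1 : Φ ![1, 0] ∈ (Φ : (Fin 2 → K) →+ W).range := ⟨_, rfl⟩
      rw [h0, AddSubgroup.mem_bot, ← map_zero Φ] at h1
      exact one_ne_zero (congrFun (hΦinj h1) 0)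
  have hsurj : ∀ y : W, ∃ x, Φ x = y := fun y => by
    have : y ∈ (Φ : (Fin 2 → K) →+ W).range := hrange ▸ AddSubgroup.mem_top y
    exact this
  have hsurj : ∀ y : W, ∃ x, Φ x = y := fun y => by
    have : y ∈ (Φ : (Fin 2 → K) →+ W).range := hrange ▸ AddSubgroup.mem_top y
    exact this
  obtain ⟨g₁, hg₁, g₂, hg₂, e₁, e₂, hD, h11, h12, h21, h22⟩ := exists_standard_pair hp2 hlam
  obtain ⟨c, hc⟩ := hT hg₁
  obtain ⟨i, hi⟩ := hT (mul_mem (mul_mem (inv_mem hg₁) hg₂) (inv_mem hg₁))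
  obtain ⟨j, hj⟩ := hT (mul_mem hg₂ hg₁)
  haveI : CharP K 3 := hp ▸ hKp
  obtain ⟨hwi, hwi', hj1, hj2⟩ := standard_pair_three g₁ g₂ e₁ e₂ h11 h12 h21 h22
  let S : AddSubgroup W :=
    { carrier := {y | ∃ k : K, y = Φ (k • e₁)}
      zero_mem' := ⟨0, by rw [zero_smul, map_zero]⟩
      add_mem' := by
        rintro _ _ ⟨k, rfl⟩ ⟨l, rfl⟩
        exact ⟨k + l, by rw [add_smul, map_add]⟩
      neg_mem' := by
        rintro _ ⟨k, rfl⟩
        exact ⟨-k, by rw [neg_smul, map_neg]⟩ }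
  have hiS : ∀ k : K, ρ i (Φ (k • e₁)) = Φ (k • e₂) := fun k => by rw [hi, mulVec_smul, hwi]
  refine ⟨c, i, j, S, fun y => ?_, ?_, ?_⟩
  · obtain ⟨x, rfl⟩ := hsurj y
    simp only [det2] at hD
    have hDi := inv_mul_cancel₀ hD
    set D := e₁ 0 * e₂ 1 - e₁ 1 * e₂ 0
    refine ⟨Φ ((D⁻¹ * det2 x e₂) • e₁), ⟨_, rfl⟩, Φ ((D⁻¹ * det2 e₁ x) • e₁), ⟨_, rfl⟩, ?_⟩
    rw [hiS, ← map_add]
    congr 1
    funext k
    fin_cases k <;> simp [det2] <;>
      linear_combination (-(x _)) * hDi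
  · intro h0
    have h1 : Φ ((1 : K) • e₁) ∈ S := ⟨1, rfl⟩
    rw [h0, AddSubgroup.mem_bot, one_smul, ← map_zero Φ] at h1
    exact hD (by simp [det2, hΦinj h1])
  · rintro _ ⟨k, rfl⟩
    rw [hiS]
    refine ⟨?_, ?_, ?_, ?_, ?_⟩
    · rw [hc, mulVec_smul, h11]
    · rw [hc, mulVec_smul, h12, smul_add, map_add]
    · rw [hi, mulVec_smul, hwi', smul_neg, map_neg]
    · rw [hj, mulVec_smul, hj1, smul_add, map_add]
    · rw [hj, mulVec_smul, hj2, smul_sub, map_sub]

end Cfsg.Agent.H34
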