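import Cfsg.Agent.H34.StableQuotient
import Cfsg.Agent.H60.StableZJ

/-!
`Z(J(S))` controls strong fusion in a group which is `p`-stable in the normalizer form (`p` odd).
-/

set_option autoImplicit false

namespace Cfsg.Agent.H34

open Cfsg.Agent.H60 hiding stable_subgroup stable_pPrime_quotient stable_central_quotient isPStableOn_of_stable zjControls zjControls_of_normal quadPairs_of_stable pGroup_of_quadratic_mod_fixed

universe u

open Subgroup
open scoped commutatorElement
open Cfsg.Agent.H61 (cj)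

variable {p : ℕ} [Fact p.Prime]

variable {G : Type u} [Group G] [Finite G]

/-- The step for a group with a nontrivial normal `p`-subgroup. -/
theorem zjControls_of_normal (hp : p ≠ 2) (hst : Cfsg.IsNormalizerPStable p G)
    (ih : ∀ (H : Type u) [Group H] [Finite H], Nat.card H < Nat.card G →
      Cfsg.IsNormalizerPStable p H → ZJControls p H)
    (U : Subgroup G) [U.Normal] (hUp : IsPGroup p U) (hU : U ≠ ⊥) : ZJControls p G := by
  intro S A hA g hgA
  set Z := Cfsg.centerThompsonAOf (S : Subgroup G) with hZ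
  have hZS : Z ≤ (S : Subgroup G) := H35.centerThompsonAOf_le _
  have hSZ : (S : Subgroup G) ≤ normalizer (Z : Set G) :=
    le_normalizer.trans (H35.normalizer_le_normalizer_centerThompsonAOf _)
  have hsub : ∀ H : Subgroup G, H ≠ ⊤ → ZJControls p H := fun H hH =>
    ih H (lt_of_le_of_ne (card_le_card_group H) fun e => hH (eq_top_of_le_card _ e.ge))
      (stable_subgroup hp hst H)
  haveI hKn : (Cfsg.pPrimeCore p G).Normal := H51.pPrimeCore_normal p G
  set K := Cfsg.pPrimeCore p G with hK
  have hKc : (Nat.card K).Coprime p := H51.pPrimeCore_coprime p G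
  by_cases hK1 : K = ⊥
  swap
  · -- modulo `O_{p'}`
    set π := QuotientGroup.mk' K with hπ
    have hπs : Function.Surjective π := QuotientGroup.mk'_surjective _
    have hker : (Nat.card π.ker).Coprime p := by rwa [hπ, QuotientGroup.ker_mk']
    have hlt : Nat.card (G ⧸ K) < Nat.card G := by
      rw [card_eq_card_quotient_mul_card_subgroup K]
      exact lt_mul_of_one_lt_right Nat.card_pos (one_lt_card_iff_ne_bot K |>.2 hK1)
    have hinj : Set.InjOn π (S : Subgroup G) := by
      intro x hx y hy e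
      have h1 : x * y⁻¹ ∈ (S : Subgroup G) ⊓ π.ker :=
        ⟨mul_mem hx (Subgroup.inv_mem _ hy), by
          show π (x * y⁻¹) = 1
          rw [map_mul, map_inv, e, mul_inv_cancel]⟩
      rw [H35.inf_eq_bot_of_coprime S.2 hker, mem_bot] at h1
      exact mul_inv_eq_one.1 h1
    obtain ⟨h', hh', c', hc', e⟩ := ih (G ⧸ K) hlt (stable_pPrime_quotient hp hst π hπs hker)
      (S.mapSurjective hπs) (A.map π) (by rw [Sylow.coe_mapSurjective]; exact map_mono hA) (π g) (by
        rw [Sylow.coe_mapSurjective]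
        rintro _ ⟨_, ⟨a, ha, rfl⟩, rfl⟩
        exact ⟨g * a * g⁻¹, hgA ⟨a, ha, rfl⟩, by simp⟩)
    have hW : Z.map π = Cfsg.centerThompsonAOf ((S.mapSurjective hπs : Sylow p (G ⧸ K)) : Subgroup (G ⧸ K)) := by
      rw [hZ, H35.map_centerThompsonAOf π _ hinj, Sylow.coe_mapSurjective]
    rw [← hW, ← H35.map_normalizer_eq π hπs hker (S.2.to_le hZS)] at hh'
    rw [← H35.map_centralizer_eq π hπs hker (S.2.to_le hA)] at hc'
    obtain ⟨h, hh, rfl⟩ := hh'
    obtain ⟨c, hc, rfl⟩ := hc'
    set k := g * (h * c)⁻¹ with hk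
    have hkK : k ∈ π.ker := by
      show π (g * (h * c)⁻¹) = 1
      rw [map_mul, map_inv, map_mul, ← e, mul_inv_cancel]
    have hcA : cj c A = A := H61.cj_eq_self (centralizer_le_normalizer _ hc)
    set B := cj h A with hB
    set A₁ := cj g A with hA₁
    have hkB : cj k B = A₁ := by
      rw [hB, hA₁, H61.cj_cj, hk]
      conv_lhs => rw [← hcA]
      rw [H61.cj_cj]
      congr 1
      group
    have hBN : B ≤ normalizer (Z : Set G) := by
      rintro _ ⟨a, ha, rfl⟩
      exact mul_mem (mul_mem hh (hSZ (hA ha))) (Subgroup.inv_mem _ hh)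
    have hA₁N : A₁ ≤ normalizer (Z : Set G) := hgA.trans hSZ
    set K0 := π.ker ⊓ normalizer (Z : Set G) with hK0
    have hA₁K0 : A₁ ≤ normalizer (K0 : Set G) :=
      (le_inf (le_normalizer_of_normal (H := π.ker)) (hA₁N.trans le_normalizer)).trans inf_normalizer_le_normalizer_inf
    have hA₁p : IsPGroup p A₁ := S.2.to_le hgA
    obtain ⟨n, hn, hnA⟩ := H20.exists_conj_eq_of_coprime (N := K0) (H := A₁) (K := B) hA₁K0
      (H35.isPGroup_coprime_card hA₁p (hker.coprime_dvd_left (card_dvd_of_le inf_le_left)))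
      (Or.inl (by have := hA₁p.isNilpotent; infer_instance))
      (by
        intro b hb
        have h1 : k * b * k⁻¹ ∈ A₁ := hkB ▸ ⟨b, hb, rfl⟩
        have h2 : b * (k * b * k⁻¹)⁻¹ ∈ K0 := by
          refine ⟨?_, mul_mem (hBN hb) (Subgroup.inv_mem _ (hA₁N h1))⟩
          show π (b * (k * b * k⁻¹)⁻¹) = 1
          rw [map_mul, map_inv, map_mul, map_mul, map_inv, show π k = 1 from hkK]
          simp
        have := mul_mem (mem_sup_left (T := A₁) h2) (mem_sup_right (S := K0) h1)
        rwa [inv_mul_cancel_right] at this)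
      (by rw [← hkB]; exact (H61.card_cj k B).symm)
    have hnA' : cj n A₁ = B := hnA
    set k'' := n * k with hk''
    have hk''B : cj k'' B = B := by rw [hk'', ← H61.cj_cj, hkB, hnA']
    have hk''K : k'' ∈ π.ker := mul_mem hn.1 hkK
    have hk''c : k'' ∈ centralizer (B : Set G) := by
      refine mem_centralizer_iff.2 fun b hb => ?_
      have h1 : k'' * b * k''⁻¹ * b⁻¹ ∈ B ⊓ π.ker := by
        refine ⟨mul_mem (hk''B.le ⟨b, hb, rfl⟩) (Subgroup.inv_mem _ hb), ?_⟩
        show π (k'' * b * k''⁻¹ * b⁻¹) = 1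
        rw [map_mul, map_mul, map_mul, map_inv, map_inv, show π k'' = 1 from hk''K]
        simp
      rw [H35.inf_eq_bot_of_coprime ((S.2.to_le hA).map _) hker, mem_bot, mul_inv_eq_one,
        mul_inv_eq_iff_eq_mul] at h1
      exact h1.symm
    refine ⟨n⁻¹ * h, mul_mem (Subgroup.inv_mem _ hn.2) hh, h⁻¹ * k'' * h * c, mul_mem ?_ hc, ?_⟩
    · refine mem_centralizer_iff.2 fun a ha => ?_
      have h1 := mem_centralizer_iff.1 hk''c (h * a * h⁻¹) ⟨a, ha, rfl⟩
      calc a * (h⁻¹ * k'' * h) = h⁻¹ * (h * a * h⁻¹ * k'') * h := by group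
        _ = h⁻¹ * (k'' * (h * a * h⁻¹)) * h := by rw [h1]
        _ = h⁻¹ * k'' * h * a := by group
    · rw [hk'', hk]; group
  set T := Cfsg.pCore p G with hT
  haveI hTn : T.Normal := H19.pCore_normal p G
  by_cases hcon : centralizer (T : Set G) ≤ T
  · -- the constrained case
    haveI := H35.centerThompsonAOf_characteristic (by omega) hcon
      (fun V _ hV => isPStableOn_of_stable hp hst V hV) S
    exact ⟨g, by rw [normalizer_eq_top]; exact mem_top g, 1, one_mem _, (mul_one g).symm⟩
  set N := centralizer (T : Set G) with hN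
  haveI hNn : N.Normal := inferInstanceAs (centralizer _).Normal
  have hTp : IsPGroup p T := H19.pCore_isPGroup p
  have hTne : T ≠ ⊥ := fun h => hU (le_bot_iff.1 (h ▸ H19.le_pCore ‹U.Normal› hUp))
  have hTS : T ≤ (S : Subgroup G) := H19.pCore_le_sylow S
  set V := N ⊓ T with hV
  haveI hVn : V.Normal := Subgroup.normal_inf_normal _ _
  haveI : (V.subgroupOf N).Normal := Subgroup.Normal.subgroupOf inferInstance _
  have hVne : V ≠ ⊥ := by
    rw [hV, inf_comm]
    exact H23.inf_centralizer_ne_bot hTp hTne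
  set T1 := (S : Subgroup G) ⊓ N with hT1
  have hT1s : H23.IsSylowIn p T1 N :=
    sylowIn_inf (H61.sylowIn_of_le S (le_top : (S : Subgroup G) ≤ ⊤)) le_top (by rw [normalizer_eq_top N])
  let S1 : Sylow p N := (hT1s.2.1.comap_subtype (K := N)).toSylow hT1s.2.2
  have hS1 : (S1 : Subgroup N) = T1.subgroupOf N := rfl
  set φ := QuotientGroup.mk' (V.subgroupOf N) with hφ
  have hφs : Function.Surjective φ := QuotientGroup.mk'_surjective _
  have hφk : φ.ker = V.subgroupOf N := QuotientGroup.ker_mk' _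
  have hkc : φ.ker ≤ center N := by
    rw [hφk]
    exact fun v hv => mem_center_iff.2 fun x => Subtype.ext (mem_centralizer_iff.1 x.2 (v : G) hv.2).symm
  have hkT : φ.ker ≤ (S1 : Subgroup N) := by
    rw [hφk, hS1]
    exact fun v hv => ⟨hTS hv.2, v.2⟩
  have hkp : IsPGroup p φ.ker := S1.2.to_le hkT
  have hlt : Nat.card (N ⧸ V.subgroupOf N) < Nat.card G := by
    refine lt_of_lt_of_le ?_ (card_le_card_group N)
    rw [card_eq_card_quotient_mul_card_subgroup (V.subgroupOf N)]
    refine lt_mul_of_one_lt_right Nat.card_pos ?_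
    rw [Nat.card_congr (subgroupOfEquivOfLe (inf_le_left : V ≤ N)).toEquiv]
    exact one_lt_card_iff_ne_bot V |>.2 hVne
  have ihq := ih (N ⧸ V.subgroupOf N) hlt
    (stable_central_quotient hp (stable_subgroup hp hst N) φ hφs hkc hkp)
  set Sb := S1.mapSurjective hφs with hSb
  set W := Cfsg.centerThompsonAOf (Sb : Subgroup (N ⧸ V.subgroupOf N)) with hW
  set W2 := (W.comap φ).map N.subtype with hW2
  -- the Sylow subgroup of `N` is not inside `V`
  have hSbne : (Sb : Subgroup (N ⧸ V.subgroupOf N)) ≠ ⊥ := by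
    intro h
    rw [hSb, Sylow.coe_mapSurjective, Subgroup.map_eq_bot_iff, hφk] at h
    apply hcon
    refine H35.centralizer_pCore_le_of_isPSolvable hK1 ?_
    refine ⟨2, ![⊥, V.subgroupOf N, ⊤], rfl, rfl, ?_, ?_, ?_⟩
    · rw [Fin.monotone_iff_le_succ]
      intro i
      fin_cases i <;> simp
    · intro i
      fin_cases i
      · exact inferInstanceAs (⊥ : Subgroup N).Normal
      · exact inferInstanceAs (V.subgroupOf N).Normal
      · exact inferInstanceAs (⊤ : Subgroup N).Normal
    · intro i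
      fin_cases i
      · left
        obtain ⟨k, hk⟩ := (hφk ▸ hkp : IsPGroup p (V.subgroupOf N)).exists_card_eq
        exact ⟨k, by simpa [Subgroup.relIndex_bot_left] using hk⟩
      · right
        have hc : ((S1 : Subgroup N).index).Coprime p :=
          ((Fact.out : p.Prime).coprime_iff_not_dvd.mpr S1.not_dvd_index).symm
        simpa [Subgroup.relIndex_top_right] using hc.coprime_dvd_left (index_dvd_of_le h)
  have hWne : W ≠ ⊥ := H35.centerThompsonAOf_ne_bot Sb.2 hSbne
  have hW2le : W2 ≤ T1 := by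
    rintro _ ⟨x, hx, rfl⟩
    obtain ⟨t, ht, he⟩ : φ x ∈ (S1 : Subgroup N).map φ := by
      rw [← Sylow.coe_mapSurjective hφs S1]
      exact H35.centerThompsonAOf_le _ hx
    have h1 : t⁻¹ * x ∈ φ.ker := by rw [MonoidHom.mem_ker, map_mul, map_inv, he, inv_mul_cancel]
    have h2 : x ∈ (S1 : Subgroup N) := by simpa using mul_mem ht (hkT h1)
    exact h2
  -- invariance
  have hNT1 : normalizer (T1 : Set G) ≤ normalizer (W2 : Set G) := by
    intro x hx
    refine H61.mem_normalizer_of_cj (H61.cj_eq_of_le ?_)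
    let eN : N ≃* N := MulAut.conjNormal x
    have hVmap : (V.subgroupOf N).map eN.toMonoidHom = V.subgroupOf N := by
      refine eq_of_le_of_card_ge ?_ ?_
      · rintro _ ⟨v, hv, rfl⟩
        show x * (v : G) * x⁻¹ ∈ V
        exact hVn.conj_mem _ hv x
      · rw [card_map_of_injective (K := V.subgroupOf N) (f := eN.toMonoidHom) eN.injective]
    let eQ := QuotientGroup.congr (V.subgroupOf N) (V.subgroupOf N) eN hVmap
    have heQ : ∀ y : N, eQ (φ y) = φ (eN y) := fun y => rfl
    have hSbeQ : (Sb : Subgroup (N ⧸ V.subgroupOf N)).map eQ.toMonoidHom = (Sb : Subgroup _) := by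
      refine eq_of_le_of_card_ge ?_ ?_
      · rw [hSb, Sylow.coe_mapSurjective]
        rintro _ ⟨_, ⟨t, ht, rfl⟩, rfl⟩
        exact ⟨eN t, (mem_normalizer_iff.1 hx (t : G)).1 ht, (heQ t).symm⟩
      · rw [card_map_of_injective (K := (Sb : Subgroup (N ⧸ V.subgroupOf N))) (f := eQ.toMonoidHom)
          eQ.injective]
    have hWeQ : W.map eQ.toMonoidHom = W :=
      (H35.map_centerThompsonAOf eQ.toMonoidHom _ eQ.injective.injOn).trans (by rw [hSbeQ])
    rintro _ ⟨_, ⟨y, hy, rfl⟩, rfl⟩
    refine ⟨eN y, ?_, rfl⟩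
    show φ (eN y) ∈ W
    rw [← heQ, ← hWeQ]
    exact mem_map_of_mem _ hy
  have hSN : (S : Subgroup G) ≤ normalizer (T1 : Set G) :=
    (le_inf le_normalizer (le_normalizer_of_normal (H := N))).trans inf_normalizer_le_normalizer_inf
  have hW2n : normalizer (W2 : Set G) ≠ ⊤ := by
    intro h
    haveI := normalizer_eq_top_iff.1 h
    apply hWne
    have h1 : W2 ≤ V := le_inf (map_subtype_le _)
      (H19.le_pCore ‹W2.Normal› (hT1s.2.1.to_le hW2le))
    rw [eq_bot_iff]
    intro y hy
    obtain ⟨x, rfl⟩ := hφs y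
    rw [mem_bot]
    exact (QuotientGroup.eq_one_iff x).2 (h1 ⟨x, hy, rfl⟩)
  -- fusion in `T1`
  have hfus : ∀ B : Subgroup G, B ≤ T1 → ∀ x : G, cj x B ≤ T1 → ActsFrom (normalizer (W2 : Set G)) B x := by
    intro B hB x hxB
    have hfr : normalizer (T1 : Set G) ⊔ N = ⊤ := by
      have e : T1 = (S1 : Subgroup N).map N.subtype := by
        rw [hS1, subgroupOf_map_subtype, inf_eq_left.2 inf_le_right]
      rw [e]
      exact Sylow.normalizer_sup_eq_top S1
    obtain ⟨n, hn, y, hy, rfl⟩ := mem_sup_of_normal_left.1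
      ((sup_comm (a := N) (b := normalizer (T1 : Set G))).trans hfr ▸ mem_top x :
        x ∈ N ⊔ normalizer (T1 : Set G))
    refine ActsFrom.mul ⟨y, hNT1 hy, 1, one_mem _, (mul_one y).symm⟩ ?_
    set B' := cj y B with hB'
    have hB'T : B' ≤ T1 := (H61.cj_mono y hB).trans (H61.cj_eq_self hy).le
    have hnB' : cj n B' ≤ T1 := by rw [hB', H61.cj_cj]; exact hxB
    have hSW : (Sb : Subgroup (N ⧸ V.subgroupOf N)) = (S1 : Subgroup N).map φ :=
      Sylow.coe_mapSurjective hφs S1
    obtain ⟨h, hh, c, hc, e⟩ := acts_of_central_quotient φ hφs hkc S1 hkT W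
      (by rw [← hSW]; exact le_normalizer.trans (H35.normalizer_le_normalizer_centerThompsonAOf _))
      (fun C hC z hzC => by rw [← hSW] at hC hzC; exact ihq Sb C hC z hzC)
      (B'.subgroupOf N) (fun z hz => hB'T hz) ⟨n, hn⟩ (by
        rintro _ ⟨z, hz, rfl⟩
        exact hnB' ⟨z, hz, rfl⟩)
    refine ⟨h, le_normalizer_map (H := W.comap φ) N.subtype ⟨h, hh, rfl⟩, c,
      mem_centralizer_iff.2 fun z hz => ?_, congrArg Subtype.val e⟩
    exact congrArg Subtype.val (mem_centralizer_iff.1 hc ⟨z, (hB'T hz).2⟩ hz)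
  have hctrl := control_of_normal N S W2 hW2le (hSN.trans hNT1) hfus A hA g hgA
  refine acts_comp hctrl fun x hx he => ?_
  obtain ⟨h, hh, c, hc, e⟩ := acts_of_subgroup (hsub _ hW2n)
    (H61.sylowIn_of_le S (hSN.trans hNT1)) hA hx (he ▸ hgA)
  exact ⟨h, hh.2, c, hc, e⟩

/-- Glauberman's theorem: `Z(J(S))` controls strong fusion for `p` odd and normalizer `p`-stable groups. -/
theorem zjControls (hp : p ≠ 2) : ∀ (G : Type u) [Group G] [Finite G],
    Cfsg.IsNormalizerPStable p G → ZJControls p G := by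
  intro G _ _
  induction hd : Nat.card G using Nat.strong_induction_on generalizing G with
  | _ d ihd =>
  subst hd
  intro hst S A hA g hgA
  have ih : ∀ (H : Type u) [Group H] [Finite H], Nat.card H < Nat.card G →
      Cfsg.IsNormalizerPStable p H → ZJControls p H := fun H _ _ hlt => ihd _ hlt H rfl
  have hW : H61.Equivariant p {(Cfsg.centerThompsonAOf : Subgroup G → Subgroup G)} := by
    rintro W rfl P hP
    exact ⟨H35.centerThompsonAOf_le P, H35.centerThompsonAOf_ne_bot hP, fun x =>
      (H35.map_centerThompsonAOf _ _ (MulAut.conj x).injective.injOn).symm⟩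
  refine H61.local_global S _ hW (ActsFrom (normalizer (Cfsg.centerThompsonAOf (S : Subgroup G) : Set G)))
    (fun A B g h hg => hg.mono h) (fun A g h h1 h2 => h1.mul h2) ?_ ?_ ?_ hA hgA
  · intro x
    exact ⟨1, one_mem _, x, mem_centralizer_iff.2 fun a ha => by
      rw [SetLike.mem_coe, mem_bot] at ha; simp [ha], (one_mul x).symm⟩
  · rintro W rfl x hx B - -
    exact ⟨x, hx, 1, one_mem _, (mul_one x).symm⟩
  · intro U hU hFull hyp x hx B hB hxB
    by_cases htop : normalizer (U : Set G) = ⊤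
    · haveI := normalizer_eq_top_iff.1 htop
      exact zjControls_of_normal hp hst ih U (S.2.to_le hFull.1) hU S B (hB.trans inf_le_left) x
        (hxB.trans inf_le_left)
    · have hlt : Nat.card (normalizer (U : Set G) : Subgroup G) < Nat.card G :=
        lt_of_le_of_ne (card_le_card_group _) fun e => htop (eq_top_of_le_card _ e.ge)
      refine acts_comp (acts_of_subgroup (ih _ hlt (stable_subgroup hp hst _)) hFull.2 hB hx hxB)
        fun y hy he => ?_
      exact hyp _ rfl y hy B hB (he ▸ hxB)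

end Cfsg.Agent.H34
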