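import Cfsg.Agent.H96.PStableConstrained
import Cfsg.Agent.H34.StableZJ

/-! Stable groups have constrained fusion systems, `p` odd. -/

set_option autoImplicit false

namespace Cfsg.Agent.H34

open Cfsg Cfsg.FusionSystem
open scoped commutatorElement

universe u

open Cfsg.Agent.H96 hiding isConstrained_of_normalizerPStable


variable {G : Type u} [Group G] [Finite G] {p : ℕ} [Fact p.Prime]

/-- A stable group at a prime odd prime has a constrained fusion system. -/
theorem isConstrained_of_normalizerPStable (hp : p ≠ 2) (hst : Cfsg.IsNormalizerPStable p G) (P : Sylow p G) :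
    (groupFusionSystem (P : Subgroup G)).IsConstrained p := by
  set F := groupFusionSystem (P : Subgroup G) with hFdef
  have hS : IsPGroup p (P : Subgroup G) := P.isPGroup'
  have hF : F.IsSaturated p := H93.isSaturated_groupFusionSystem P
  have hQ : F.IsNormal F.core := isNormal_core F
  set Q := F.core with hQdef
  have hQS := hQ.1
  have hQsc := H93.IsNormal.stronglyClosed hQ
  refine ⟨hF, Q, hQ, hQS, fun Q' hQ' => ?_⟩
  rw [eq_of_isConj_normal hQ hQ']
  set L := Subgroup.normalizer (Q : Set G) with hL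
  have hPL : (P : Subgroup G) ≤ L := H93.StronglyClosed.le_normalizer hQsc
  set C := (Subgroup.centralizer (Q : Set G)).subgroupOf L with hC
  have hCn : C.Normal := by
    rw [hC]
    infer_instance
  obtain ⟨TC, hTC⟩ := H94.exists_sylow_inf_normal (P.subtype hPL) C
  set Z := (Q.subgroupOf L).subgroupOf C with hZ
  have hZc : Z ≤ Subgroup.center C := by
    intro z hz
    refine Subgroup.mem_center_iff.2 fun y => Subtype.ext (Subtype.ext ?_)
    exact (Subgroup.mem_centralizer_iff.1 (Subgroup.mem_subgroupOf.1 y.2) _ hz).symm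
  have hZn : Z.Normal := ⟨fun z hz y => by
    rwa [Subgroup.mem_center_iff.1 (hZc hz) y, mul_inv_cancel_right]⟩
  have hZT : Z ≤ (TC : Subgroup C) := fun z hz => by
    rw [hTC]
    exact ⟨hQS hz, z.2⟩
  have hTCmem : ∀ y : C, y ∈ (TC : Subgroup C) ↔ ((y : L) : G) ∈ (P : Subgroup G) := fun y => by
    rw [hTC]
    exact ⟨fun h => h.1, fun h => ⟨h, y.2⟩⟩
  set f := QuotientGroup.mk' Z with hf
  have hfs : Function.Surjective f := QuotientGroup.mk'_surjective Z
  have hkerf : f.ker = Z := QuotientGroup.ker_mk' Z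
  have hstX : Cfsg.IsNormalizerPStable p (C ⧸ Z) := by
    refine stable_central_quotient hp (stable_subgroup hp (stable_subgroup hp hst L) C) f hfs
      (by rw [hkerf]; exact hZc) ?_
    rw [hkerf]
    exact TC.isPGroup'.to_le hZT
  set TX := TC.mapSurjective hfs with hTX
  set Wb := Cfsg.centerThompsonAOf (TX : Subgroup (C ⧸ Z)) with hWb
  have hWbT : Wb ≤ (TX : Subgroup (C ⧸ Z)) := H35.centerThompsonAOf_le _
  have hWbsc : ∀ x ∈ Wb, ∀ g : C ⧸ Z, g * x * g⁻¹ ∈ (TX : Subgroup (C ⧸ Z)) → g * x * g⁻¹ ∈ Wb := by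
    intro x hx g hg
    have hA : Subgroup.zpowers x ≤ (TX : Subgroup (C ⧸ Z)) := Subgroup.zpowers_le.2 (hWbT hx)
    obtain ⟨h, hh, c, hc, rfl⟩ := zjControls hp (C ⧸ Z) hstX TX _ hA g (by
      rintro _ ⟨y, hy, rfl⟩
      obtain ⟨i, rfl⟩ := Subgroup.mem_zpowers_iff.1 hy
      show g * x ^ i * g⁻¹ ∈ _
      rw [← conj_zpow]
      exact zpow_mem hg i)
    have hcx : c * x * c⁻¹ = x := by
      rw [← Subgroup.mem_centralizer_iff.1 hc x (Subgroup.mem_zpowers x), mul_inv_cancel_right]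
    rw [show h * c * x * (h * c)⁻¹ = h * (c * x * c⁻¹) * h⁻¹ by group, hcx]
    exact (Subgroup.mem_normalizer_iff.1 hh x).1 hx
  have hWbT' : Wb.comap f ≤ (TC : Subgroup C) := by
    refine (Subgroup.comap_mono hWbT).trans ?_
    rw [hTX, Sylow.coe_mapSurjective, Subgroup.comap_map_eq, hkerf]
    exact sup_le le_rfl hZT
  set W := ((Wb.comap f).map C.subtype).map L.subtype with hW
  have hWS : W ≤ (P : Subgroup G) := by
    rintro _ ⟨_, ⟨y, hy, rfl⟩, rfl⟩
    exact (hTCmem y).1 (hWbT' hy)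
  -- elements of `L` normalizing the Sylow subgroup of `C` fix `W`
  have hnorm : ∀ n : L, n ∈ Subgroup.normalizer (((TC : Subgroup C).map C.subtype : Subgroup L) : Set L) →
      ∀ y : C, f y ∈ Wb → f ((MulAut.conjNormal n : MulAut C) y) ∈ Wb := by
    intro n hn y hy
    set α : MulAut C := MulAut.conjNormal n
    have hαZ : Z.map (α : C →* C) = Z := by
      refine Subgroup.eq_of_le_of_card_ge ?_ (Subgroup.card_map_of_injective α.injective).ge
      rintro _ ⟨z, hz, rfl⟩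
      exact (Subgroup.mem_normalizer_iff.1 n.2 _).1 hz
    let αq := QuotientGroup.congr Z Z α hαZ
    have hαT : (TC : Subgroup C).map (α : C →* C) = TC := by
      refine Subgroup.eq_of_le_of_card_ge ?_ (Subgroup.card_map_of_injective α.injective).ge
      rintro _ ⟨t, ht, rfl⟩
      obtain ⟨t', ht', e⟩ := (Subgroup.mem_normalizer_iff.1 hn _).1 ⟨t, ht, rfl⟩
      rwa [show (α : C →* C) t = t' from Subtype.ext e.symm]
    have hcomp : (αq.toMonoidHom).comp f = f.comp (α : C →* C) := MonoidHom.ext fun z => rfl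
    have hmap : Wb.map αq.toMonoidHom = Wb := by
      refine (H35.map_centerThompsonAOf αq.toMonoidHom (TX : Subgroup (C ⧸ Z)) αq.injective.injOn).trans ?_
      rw [hWb]
      congr 1
      rw [hTX, Sylow.coe_mapSurjective, Subgroup.map_map, hcomp, ← Subgroup.map_map, hαT]
    rw [← hmap]
    exact ⟨f y, hy, rfl⟩
  have hmemW : ∀ {x : G}, x ∈ W ↔ ∃ y : C, f y ∈ Wb ∧ ((y : L) : G) = x := by
    intro x
    constructor
    · rintro ⟨_, ⟨y, hy, rfl⟩, rfl⟩
      exact ⟨y, hy, rfl⟩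
    · rintro ⟨y, hy, rfl⟩
      exact ⟨_, ⟨y, hy, rfl⟩, rfl⟩
  -- maps of the system come from `L`
  have hreal : ∀ (R : Subgroup G) (φ : R →* G), φ ∈ F.Hom R → ∃ g : L, ∀ x : R, φ x = g * (x : G) * (g : G)⁻¹ := by
    intro R φ hφ
    obtain ⟨ψ, hψ, h1, h2⟩ := exists_ext_of_normal hQ hφ
    obtain ⟨-, -, g, hg⟩ := id hψ
    have hgQ : g ∈ L := H94.mem_normalizer_of_forall_conj_mem fun q hq => by
      have := h2 ⟨q, hq⟩
      rwa [hg] at this
    exact ⟨⟨g, hgQ⟩, fun x => (h1 x).symm.trans (hg _)⟩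
  have hWsc : F.StronglyClosed W := by
    refine ⟨hWS, fun R hR φ hφ x => ?_⟩
    obtain ⟨g, hg⟩ := hreal R φ hφ
    obtain ⟨y, hy, hyx⟩ := hmemW.1 (hR x.2)
    have hφS : φ x ∈ (P : Subgroup G) := (F.le_of_mem hφ).2 x
    rw [hg] at hφS ⊢
    rw [← hyx] at hφS ⊢
    obtain ⟨n, hn, c, hc, rfl⟩ := Subgroup.mem_sup_of_normal_right.1
      ((Sylow.normalizer_sup_eq_top TC).symm ▸ Subgroup.mem_top g :
        g ∈ Subgroup.normalizer ((TC : Subgroup C).map C.subtype : Set L) ⊔ C)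
    set c' : C := ⟨c, hc⟩
    set y' : C := (MulAut.conjNormal n : MulAut C) (c' * y * c'⁻¹)
    have hy' : ((y' : L) : G) = ((n * c : L) : G) * ((y : L) : G) * ((n * c : L) : G)⁻¹ := by
      simp [y', c', mul_assoc]
    rw [← hy'] at hφS ⊢
    have hy'T : y' ∈ (TC : Subgroup C) := (hTCmem y').2 hφS
    have hcy : c' * y * c'⁻¹ ∈ (TC : Subgroup C) := by
      obtain ⟨t, ht, e⟩ := (Subgroup.mem_normalizer_iff.1 hn ((c' * y * c'⁻¹ : C) : L)).2
        ⟨y', hy'T, by simp [y', mul_assoc]⟩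
      rwa [show c' * y * c'⁻¹ = t from Subtype.ext e.symm]
    have hW1 : f (c' * y * c'⁻¹) ∈ Wb := by
      rw [map_mul, map_mul, map_inv]
      refine hWbsc _ hy _ ?_
      rw [← map_inv, ← map_mul, ← map_mul]
      exact ⟨_, hcy, rfl⟩
    exact hmemW.2 ⟨y', hnorm n hn _ hW1, rfl⟩
  have hZsc : F.StronglyClosed ((Z.map C.subtype).map L.subtype) := by
    refine ⟨?_, fun R hR φ hφ x => ?_⟩
    · rintro _ ⟨_, ⟨z, hz, rfl⟩, rfl⟩
      exact hQS hz
    obtain ⟨g, hg⟩ := hreal R φ hφ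
    obtain ⟨_, ⟨z, hz, rfl⟩, hzx⟩ := hR x.2
    rw [hg, ← hzx]
    refine ⟨_, ⟨(MulAut.conjNormal g : MulAut C) z, (Subgroup.mem_normalizer_iff.1 g.2 _).1 hz, rfl⟩, ?_⟩
    simp
  have hWn : F.IsNormal W := by
    refine H93.isNormal_of_chain hS hF 2
      (fun i => if i = 0 then ⊥ else if i = 1 then (Z.map C.subtype).map L.subtype else W) (by simp) (by simp)
      (fun i hi => ?_) (fun i hi => ?_) (fun i hi => ?_)
    · interval_cases i
      · simp
      · simp only [one_ne_zero, if_false, if_true, OfNat.ofNat_ne_zero]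
        refine Subgroup.map_mono (Subgroup.map_mono fun z hz => ?_)
        rw [Subgroup.mem_comap, show f z = 1 from (QuotientGroup.eq_one_iff z).2 hz]
        exact one_mem _
    · interval_cases i
      · simpa using hZsc
      · simpa using hWsc
    · interval_cases i
      · simp only [one_ne_zero, if_false, if_true]
        rw [Subgroup.commutator_le]
        rintro _ ⟨_, ⟨y, -, rfl⟩, rfl⟩ _ ⟨_, ⟨z, hz, rfl⟩, rfl⟩
        rw [Subgroup.mem_bot, commutatorElement_eq_one_iff_mul_comm]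
        exact (Subgroup.mem_centralizer_iff.1 (Subgroup.mem_subgroupOf.1 y.2) _ hz).symm
      · simp only [one_ne_zero, if_false, if_true, OfNat.ofNat_ne_zero]
        rw [Subgroup.commutator_le]
        rintro _ ⟨_, ⟨y, hy, rfl⟩, rfl⟩ _ ⟨_, ⟨z, hz, rfl⟩, rfl⟩
        refine ⟨_, ⟨⁅y, z⁆, ?_, rfl⟩, by simp⟩
        refine (QuotientGroup.eq_one_iff _).1 ?_
        show f ⁅y, z⁆ = 1
        rw [map_commutatorElement, commutatorElement_eq_one_iff_mul_comm]
        exact ((Subgroup.mem_centralizer_iff.1 hy.2) _ hz.1).symm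
  have hWQ : W ≤ Q := le_sSup hWn
  have hWbot : Wb = ⊥ := by
    refine eq_bot_iff.2 fun w hw => ?_
    obtain ⟨y, rfl⟩ := hfs w
    exact Subgroup.mem_bot.2 ((QuotientGroup.eq_one_iff y).2 (hWQ (hmemW.2 ⟨y, hw, rfl⟩)))
  have hTXbot : (TX : Subgroup (C ⧸ Z)) = ⊥ := by
    by_contra hne
    exact H35.centerThompsonAOf_ne_bot TX.isPGroup' hne hWbot
  intro x hx
  have hxL : x ∈ L := hPL hx.1
  have hxC : (⟨x, hxL⟩ : L) ∈ C := hx.2
  have hxT : f ⟨⟨x, hxL⟩, hxC⟩ ∈ (⊥ : Subgroup (C ⧸ Z)) :=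
    hTXbot ▸ ⟨_, (hTCmem ⟨⟨x, hxL⟩, hxC⟩).2 hx.1, rfl⟩
  exact (QuotientGroup.eq_one_iff (⟨⟨x, hxL⟩, hxC⟩ : C)).1 (Subgroup.mem_bot.1 hxT)

end Cfsg.Agent.H34
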