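import Cfsg.Agent.H60.StableQuadratic
import Cfsg.Agent.H34.QuadraticThree
import Cfsg.Agent.H61.KInfApps
import Cfsg.Agent.H61.Stability
import Cfsg.Agent.H22.PResidual
import Cfsg.Agent.H56.Coprime
import Cfsg.Agent.H53.OmegaFaithful

/-!
Stability in the normalizer form (`p = 3`, hence all odd `p`) forbids pairs of elements acting quadratically modulo a
centralised subgroup which do not act as a `p`-group.
-/

set_option autoImplicit false

namespace Cfsg.Agent.H34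

open Subgroup
open scoped commutatorElement

variable {G : Type*} [Group G] [Finite G] {p : ℕ} [Fact p.Prime]

/-- The key consequence of stability in the normalizer form. -/
theorem pGroup_of_quadratic_mod_fixed_three (hp : p = 3) (hst : Cfsg.IsNormalizerPStable p G)
    {P V : Subgroup G} (hP : IsPGroup p P) {a b : G}
    (haP : a ∈ normalizer (P : Set G)) (hbP : b ∈ normalizer (P : Set G))
    (haV : ∀ v ∈ V, a * v * a⁻¹ = v) (hbV : ∀ v ∈ V, b * v * b⁻¹ = v)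
    (hqa : ∀ x ∈ P, ⁅a, ⁅a, x⁆⁆ ∈ V) (hqb : ∀ x ∈ P, ⁅b, ⁅b, x⁆⁆ ∈ V) :
    ∀ y ∈ closure ({a, b} : Set G), ∃ k : ℕ, y ^ p ^ k ∈ centralizer (P : Set G) := by
  by_contra hbad
  set Y := closure ({a, b} : Set G) with hY
  have haY : a ∈ Y := subset_closure (Or.inl rfl)
  have hbY : b ∈ Y := subset_closure (Or.inr rfl)
  -- minimal invariant subgroup on which `Y` is not a `p`-group
  obtain ⟨Q, ⟨hQP, hQY, hQbad⟩, hQmin⟩ := Set.Finite.exists_minimal
    (s := {R : Subgroup G | R ≤ P ∧ Y ≤ normalizer (R : Set G) ∧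
      ¬ ∀ y ∈ Y, ∃ k : ℕ, y ^ p ^ k ∈ centralizer (R : Set G)}) (Set.toFinite _)
    ⟨P, le_rfl, (closure_le _).2 (by rintro y (rfl | rfl) <;> assumption), hbad⟩
  have hQp : IsPGroup p Q := hP.to_le hQP
  set Ds : Set G := {y | y ∈ Y ∧ (orderOf y).Coprime p} with hDs
  have hprop : ∀ R : Subgroup G, R < Q → Y ≤ normalizer (R : Set G) →
      R ≤ centralizer Ds := by
    intro R hR hRY r hr y hy
    have hgood : ∀ y ∈ Y, ∃ k : ℕ, y ^ p ^ k ∈ centralizer (R : Set G) := by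
      by_contra h
      exact hR.not_ge (hQmin ⟨hR.le.trans hQP, hRY, h⟩ hR.le)
    obtain ⟨k, hk⟩ := hgood y hy.1
    obtain ⟨m, hm⟩ := exists_pow_eq_self_of_coprime ((hy.2.pow_right k).symm)
    have : y ∈ centralizer (R : Set G) := hm ▸ pow_mem hk m
    exact (mem_centralizer_iff.1 this r hr).symm
  have hconjQ : ∀ y ∈ Y, ∀ q ∈ Q, y * q * y⁻¹ ∈ Q := fun y hy q hq =>
    (mem_normalizer_iff.1 (hQY hy) q).1 hq
  -- the fixed points of the `p'`-elements
  set N := Q ⊓ centralizer Ds with hN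
  have hNQ : N ≤ Q := inf_le_left
  have hNfix : ∀ n ∈ N, ∀ y ∈ Y, (orderOf y).Coprime p → y * n * y⁻¹ = n := fun n hn y hy hyc => by
    rw [mem_centralizer_iff.1 hn.2 y ⟨hy, hyc⟩, mul_inv_cancel_right]
  have hNY : Y ≤ normalizer (N : Set G) := by
    refine le_normalizer_iff.2 fun y hy n hn => ⟨hconjQ y hy n hn.1, fun d hd => ?_⟩
    have hd' : y⁻¹ * d * y ∈ Ds := ⟨mul_mem (mul_mem (Y.inv_mem hy) hd.1) hy, by
      have : orderOf (y⁻¹ * d * y) = orderOf d := by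
        simpa using (MulEquiv.orderOf_eq (MulAut.conj y⁻¹) d)
      rw [this]; exact hd.2⟩
    have h := mem_centralizer_iff.1 hn.2 _ hd'
    calc d * (y * n * y⁻¹) = y * (y⁻¹ * d * y * n) * y⁻¹ := by group
      _ = y * (n * (y⁻¹ * d * y)) * y⁻¹ := by rw [h]
      _ = y * n * y⁻¹ * d := by group
  have hnofix : ¬ ∀ y ∈ Y, (orderOf y).Coprime p → ∀ q ∈ Q, y * q * y⁻¹ = q := by
    intro h
    refine hQbad fun y hy => ⟨(orderOf y).factorization p, mem_centralizer_iff.2 fun q hq => ?_⟩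
    have hc : (orderOf (y ^ p ^ (orderOf y).factorization p)).Coprime p := by
      rw [orderOf_pow_of_dvd (pow_ne_zero _ (Fact.out : p.Prime).ne_zero) (Nat.ordProj_dvd _ _)]
      exact (Nat.coprime_ordCompl Fact.out (orderOf_pos y).ne').symm
    exact (mul_inv_eq_iff_eq_mul.1 (h _ (pow_mem hy _) hc q hq)).symm
  have hmax : ∀ R : Subgroup G, R ≤ Q → Y ≤ normalizer (R : Set G) → R = Q ∨ R ≤ N := by
    intro R hR hRY
    rcases hR.eq_or_lt with h | h
    · exact Or.inl h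
    · exact Or.inr (le_inf hR (hprop R h hRY))
  have hNne : N < Q := lt_of_le_of_ne hNQ fun h =>
    hnofix fun y hy hyc q hq => hNfix q (h ▸ hq) y hy hyc
  -- `N` contains the Frattini subgroup
  have hQn : Nontrivial Q := (nontrivial_iff_ne_bot Q).2 fun h => not_lt_bot (h ▸ hNne)
  set F := (frattini Q).map Q.subtype with hF
  have hFN : F ≤ N := by
    rcases hmax F (map_subtype_le _) (Cfsg.Agent.H53.le_normalizer_map_characteristic _ hQY) with h | h
    · exfalso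
      have : frattini Q = ⊤ := by
        apply Subgroup.map_injective Q.subtype_injective
        rw [← MonoidHom.range_eq_map, Subgroup.range_subtype]; exact h
      exact bot_ne_top (frattini_nongenerating (G := Q) (K := ⊥) (by rw [this]; simp))
    · exact h
  have hcommN : ∀ q ∈ Q, ∀ r ∈ Q, ⁅q, r⁆ ∈ N := fun q hq r hr =>
    hFN ⟨⁅(⟨q, hq⟩ : Q), ⟨r, hr⟩⁆, Cfsg.Agent.H24.commutator_le_frattini hQp
      (commutator_mem_commutator (mem_top _) (mem_top _)), rfl⟩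
  have hpowN : ∀ q ∈ Q, q ^ p ∈ N := fun q hq =>
    hFN ⟨(⟨q, hq⟩ : Q) ^ p, Cfsg.Agent.H24.pow_mem_frattini hQp _, rfl⟩
  have hQnN : ∀ q ∈ Q, ∀ n ∈ N, q * n * q⁻¹ ∈ N := fun q hq n hn => by
    have := mul_mem (hcommN q hq n (hNQ hn)) hn
    simpa [commutatorElement_def, mul_assoc] using this
  -- `N` is central in `Q`
  set R0 := closure {z : G | ∃ y ∈ Y, (orderOf y).Coprime p ∧ ∃ q ∈ Q, z = q⁻¹ * (y * q * y⁻¹)} with hR0
  have hR0Q : R0 ≤ Q := (closure_le _).2 (by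
    rintro _ ⟨y, hy, -, q, hq, rfl⟩
    exact mul_mem (Q.inv_mem hq) (hconjQ y hy q hq))
  have hR0Y : Y ≤ normalizer (R0 : Set G) := by
    refine le_normalizer_iff.2 fun w hw => ?_
    suffices R0.map (MulAut.conj w).toMonoidHom ≤ R0 from fun z hz => this ⟨z, hz, rfl⟩
    rw [hR0, MonoidHom.map_closure, closure_le]
    rintro _ ⟨_, ⟨y, hy, hyc, q, hq, rfl⟩, rfl⟩
    refine subset_closure ⟨w * y * w⁻¹, mul_mem (mul_mem hw hy) (Y.inv_mem hw), ?_,
      w * q * w⁻¹, hconjQ w hw q hq, ?_⟩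
    · have : orderOf (w * y * w⁻¹) = orderOf y := MulEquiv.orderOf_eq (MulAut.conj w) y
      rw [this]; exact hyc
    · simp [mul_assoc]
  have hR0eq : R0 = Q := by
    refine (hmax R0 hR0Q hR0Y).resolve_right fun hle => hnofix fun y hy hyc q hq => ?_
    exact H61.coprime_centralizes (W := Q) (hP.to_le (hle.trans (hNQ.trans hQP))) hyc
      (fun v hv => hNfix v (hle hv) y hy hyc)
      (fun w hw => subset_closure ⟨y, hy, hyc, w, hw, rfl⟩) q hq
  have hNcent : ∀ n ∈ N, ∀ q ∈ Q, n * q = q * n := by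
    intro n hn
    suffices Q ≤ centralizer {n} from fun q hq => (mem_centralizer_singleton_iff.1 (this hq)).symm
    rw [← hR0eq, hR0, closure_le]
    rintro _ ⟨y, hy, hyc, q, hq, rfl⟩
    rw [SetLike.mem_coe, mem_centralizer_singleton_iff]
    have h1 := hNfix n hn y hy hyc
    have h2 := hNfix _ (hQnN q hq n hn) y hy hyc
    have h3 : n * y = y * n := (mul_inv_eq_iff_eq_mul.1 h1).symm
    have h4 : y⁻¹ * n = n * y⁻¹ := by
      rw [inv_mul_eq_iff_eq_mul, ← mul_assoc, ← h3, mul_inv_cancel_right]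
    calc q⁻¹ * (y * q * y⁻¹) * n = q⁻¹ * (y * q * (y⁻¹ * n)) := by group
      _ = q⁻¹ * (y * q * (n * y⁻¹)) := by rw [h4]
      _ = q⁻¹ * (y * (q * n * q⁻¹) * y⁻¹) * (y * q * y⁻¹) := by group
      _ = q⁻¹ * (q * n * q⁻¹) * (y * q * y⁻¹) := by rw [h2]
      _ = n * (q⁻¹ * (y * q * y⁻¹)) := by group
  -- the module
  haveI hN' : (N.subgroupOf Q).Normal := ⟨fun n hn q => hQnN q q.2 n hn⟩
  let W := Q ⧸ N.subgroupOf Q
  letI : CommGroup W :=
    { (inferInstance : Group W) with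
      mul_comm := fun x y => by
        induction x using QuotientGroup.induction_on with | _ x =>
        induction y using QuotientGroup.induction_on with | _ y =>
        refine QuotientGroup.eq.2 ?_
        show (((x * y)⁻¹ * (y * x) : Q) : G) ∈ N
        have : (((x * y)⁻¹ * (y * x) : Q) : G) = ⁅(y : G)⁻¹, (x : G)⁻¹⁆ := by
          simp [commutatorElement_def, mul_assoc]
        rw [this]
        exact hcommN _ (Q.inv_mem y.2) _ (Q.inv_mem x.2) }
  let m : Q → Additive W := fun x => Additive.ofMul (QuotientGroup.mk x : W)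
  have hmmul : ∀ x y, m (x * y) = m x + m y := fun _ _ => rfl
  have hm0 : ∀ x, m x = 0 ↔ (x : G) ∈ N := fun x => QuotientGroup.eq_one_iff x
  have hmsurj : Function.Surjective m := fun y => by
    obtain ⟨x, hx⟩ := QuotientGroup.mk_surjective (Additive.toMul y)
    exact ⟨x, congrArg Additive.ofMul hx⟩
  let cj : Y → Q →* Q := fun h => MonoidHom.mk'
    (fun x => ⟨(h : G) * x * (h : G)⁻¹, hconjQ h h.2 x x.2⟩)
    (fun x y => Subtype.ext (by simp [mul_assoc]))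
  have hcj : ∀ h, N.subgroupOf Q ≤ (N.subgroupOf Q).comap (cj h) := fun h x hx =>
    (mem_normalizer_iff.1 (hNY h.2) x).1 hx
  let ρ : Y →* AddMonoid.End (Additive W) :=
    { toFun := fun h => MonoidHom.toAdditive (QuotientGroup.map _ _ (cj h) (hcj h))
      map_one' := by
        refine AddMonoidHom.ext fun y => ?_
        obtain ⟨x, rfl⟩ := hmsurj y
        show m (cj 1 x) = m x
        exact congrArg m (Subtype.ext (by simp [cj]))
      map_mul' := fun g h => by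
        refine AddMonoidHom.ext fun y => ?_
        obtain ⟨x, rfl⟩ := hmsurj y
        show m (cj (g * h) x) = m (cj g (cj h x))
        exact congrArg m (Subtype.ext (by simp [cj, mul_assoc])) }
  have hρ : ∀ h x, ρ h (m x) = m (cj h x) := fun _ _ => rfl
  have hkey : ∀ (h : Y) (x : Q), ρ h (m x) - m x = m (cj h x * x⁻¹) := fun h x => by
    rw [sub_eq_iff_eq_add, hρ, ← hmmul, inv_mul_cancel_right]
  have hρeq : ∀ h : Y, ∀ h' : Y, ρ h = ρ h' → ∀ q ∈ Q, ((h : G) * q * (h : G)⁻¹) *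
      ((h' : G) * q * (h' : G)⁻¹)⁻¹ ∈ N := by
    intro h h' he q hq
    have e : m (cj h ⟨q, hq⟩ * (cj h' ⟨q, hq⟩)⁻¹) = 0 := by
      have h1 : m (cj h ⟨q, hq⟩) = m (cj h' ⟨q, hq⟩) := by rw [← hρ, ← hρ, he]
      have h2 := hmmul (cj h ⟨q, hq⟩ * (cj h' ⟨q, hq⟩)⁻¹) (cj h' ⟨q, hq⟩)
      rw [inv_mul_cancel_right, h1] at h2
      exact (right_eq_add.1 h2)
    exact (hm0 _).1 e
  have hWp : ∀ y : Additive W, p • y = 0 := by
    intro y
    obtain ⟨x, rfl⟩ := hmsurj y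
    have hn : ∀ n : ℕ, n • m x = m (x ^ n) := by
      intro n
      induction n with
      | zero => rw [zero_nsmul, pow_zero]; rfl
      | succ n ih => rw [succ_nsmul, ih, pow_succ, hmmul]
    rw [hn, hm0]
    simpa using hpowN _ x.2
  -- quadratic action
  have hVQ : V ⊓ Q ≤ N := by
    have hfixV : Y ≤ centralizer (V : Set G) := (closure_le _).2 (by
      rintro y (rfl | rfl)
      · exact mem_centralizer_iff.2 fun v hv => (mul_inv_eq_iff_eq_mul.1 (haV v hv)).symm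
      · exact mem_centralizer_iff.2 fun v hv => (mul_inv_eq_iff_eq_mul.1 (hbV v hv)).symm)
    exact fun v hv => ⟨hv.2, fun y hy => (mem_centralizer_iff.1 (hfixV hy.1) v hv.1).symm⟩
  have hquad : ∀ h : Y, (∀ x ∈ P, ⁅(h : G), ⁅(h : G), x⁆⁆ ∈ V) →
      ∀ y, ρ h (ρ h y - y) = ρ h y - y := by
    intro h hh y
    obtain ⟨x, rfl⟩ := hmsurj y
    rw [hkey, ← sub_eq_zero, hkey, hm0]
    have h2 : ⁅(h : G), ⁅(h : G), (x : G)⁆⁆ ∈ Q :=
      mul_mem (hconjQ _ h.2 _ (mul_mem (hconjQ _ h.2 _ x.2) (Q.inv_mem x.2)))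
        (Q.inv_mem (mul_mem (hconjQ _ h.2 _ x.2) (Q.inv_mem x.2)))
    exact hVQ ⟨hh x (hQP x.2), h2⟩
  let a₀ : Y := ⟨a, haY⟩
  let b₀ : Y := ⟨b, hbY⟩
  have hab : closure ({a₀, b₀} : Set Y) = ⊤ := by
    have : ({a₀, b₀} : Set Y) = ((↑) : Y → G) ⁻¹' {a, b} := by
      ext x; simp [a₀, b₀, Subtype.ext_iff]
    rw [this]
    exact Subgroup.closure_closure_coe_preimage
  have hnp : ¬ ∀ h : Y, ∃ k : ℕ, ρ (h ^ (p ^ k)) = 1 := by
    refine fun hall => hnofix fun y hy hyc q hq => ?_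
    refine H61.coprime_centralizes (W := Q) (hP.to_le (hNQ.trans hQP)) hyc
      (fun v hv => hNfix v hv y hy hyc) (fun w hw => ?_) q hq
    obtain ⟨k, hk⟩ := hall ⟨y, hy⟩
    have hyc' : (orderOf (⟨y, hy⟩ : Y)).Coprime p := by rwa [Subgroup.orderOf_mk]
    obtain ⟨j, hj⟩ := exists_pow_eq_self_of_coprime ((hyc'.pow_right k).symm)
    have h1 : ρ (⟨y, hy⟩ : Y) = 1 := by rw [← hj, map_pow, hk, one_pow]
    have h2 := hρeq (⟨y, hy⟩ : Y) 1 (by rw [h1, map_one]) w hw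
    simp only [OneMemClass.coe_one, one_mul, inv_one, mul_one] at h2
    have h3 := hQnN w⁻¹ (Q.inv_mem hw) _ h2
    simpa [mul_assoc] using h3
  have hirr : ∀ S : AddSubgroup (Additive W), (∀ h : Y, ∀ s ∈ S, ρ h s ∈ S) → S = ⊥ ∨ S = ⊤ := by
    intro S hS
    let R : Subgroup G :=
      { carrier := {g | ∃ hg : g ∈ Q, m ⟨g, hg⟩ ∈ S}
        one_mem' := ⟨one_mem Q, by show m 1 ∈ S; exact zero_mem S⟩
        mul_mem' := fun {x y} ⟨hx, hx'⟩ ⟨hy, hy'⟩ => ⟨mul_mem hx hy, add_mem hx' hy'⟩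
        inv_mem' := fun {x} ⟨hx, hx'⟩ => ⟨Q.inv_mem hx, neg_mem hx'⟩ }
    have hRY : Y ≤ normalizer (R : Set G) := by
      refine le_normalizer_iff.2 fun y hy g ⟨hg, hg'⟩ => ⟨hconjQ y hy g hg, ?_⟩
      exact hS ⟨y, hy⟩ _ hg'
    rcases hmax R (fun g hg => hg.1) hRY with h | h
    · right
      refine eq_top_iff.2 fun y _ => ?_
      obtain ⟨x, rfl⟩ := hmsurj y
      obtain ⟨hg, hx⟩ : (x : G) ∈ R := by rw [h]; exact x.2
      exact hx
    · left
      refine eq_bot_iff.2 fun y hy => ?_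
      obtain ⟨x, rfl⟩ := hmsurj y
      exact AddSubgroup.mem_bot.2 ((hm0 x).2 (h ⟨x.2, hy⟩))
  have qa := hquad a₀ hqa
  have qb := hquad b₀ hqb
  obtain ⟨c₀, i₀, j₀, S, hSsp, hS0, hSact⟩ := exists_standard_elements hp hWp ρ a₀ b₀ hab qa qb hnp hirr
  have hdec : ∀ s ∈ S, ρ i₀ (ρ i₀ s) = -s := fun s hs => (hSact s hs).2.2.1
  have hh₀ : ∀ y, ρ (i₀ * i₀) y = -y := by
    intro y
    obtain ⟨s, hs, u, hu, rfl⟩ := hSsp y
    rw [map_mul]
    show ρ i₀ (ρ i₀ (s + ρ i₀ u)) = _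
    rw [map_add, map_add, hdec s hs, hdec u hu, map_neg]
    abel
  have hjj : ∀ y, ρ (j₀ * j₀) y = -y := by
    intro y
    obtain ⟨s, hs, u, hu, rfl⟩ := hSsp y
    have h3 : ∀ z : Additive W, z + z + z = 0 := fun z => by
      have := hWp z
      rw [hp] at this
      rw [show (3 : ℕ) = 1 + 1 + 1 from rfl, add_nsmul, add_nsmul, one_nsmul] at this
      exact this
    rw [map_mul]
    show ρ j₀ (ρ j₀ (s + ρ i₀ u)) = _
    rw [map_add, (hSact s hs).2.2.2.1, (hSact u hu).2.2.2.2, map_add, map_add, map_sub,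
      (hSact s hs).2.2.2.1, (hSact s hs).2.2.2.2, (hSact u hu).2.2.2.1, (hSact u hu).2.2.2.2]
    have e : ∀ z : Additive W, z + z = -z := fun z => eq_neg_of_add_eq_zero_left (h3 z)
    rw [show s + ρ i₀ s + (s - ρ i₀ s) + (u + ρ i₀ u - (u - ρ i₀ u)) = (s + s) + (ρ i₀ u + ρ i₀ u) by abel,
      e, e]
    abel
  have qc : ∀ y, ρ c₀ (ρ c₀ y - y) = ρ c₀ y - y := by
    intro y
    obtain ⟨s, hs, u, hu, rfl⟩ := hSsp y
    rw [map_add, (hSact s hs).1, (hSact u hu).2.1,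
      show s + (ρ i₀ u + u) - (s + ρ i₀ u) = u by abel, (hSact u hu).1]
  have hc1 : ρ c₀ ≠ 1 := by
    intro h
    refine hS0 (eq_bot_iff.2 fun s hs => ?_)
    have h1 := (hSact s hs).2.1
    rw [h] at h1
    exact AddSubgroup.mem_bot.2 (left_eq_add.1 (show ρ i₀ s = ρ i₀ s + s from h1))
  -- elements of order prime to `p` with the same action
  have hlift : ∀ g : Y, (∀ y, ρ (g * g) y = -y) → ∃ d : Y, ρ d = ρ g ∧ (orderOf d).Coprime p := by
    intro g hg
    have h4 : ρ (g ^ 4) = 1 := AddMonoidHom.ext fun y => by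
      rw [show g ^ 4 = (g * g) * (g * g) by rw [show (4 : ℕ) = 2 + 2 from rfl, pow_add, sq], map_mul]
      show ρ (g * g) (ρ (g * g) y) = y
      rw [hg, hg, neg_neg]
    refine ⟨g ^ p ^ (2 * (orderOf g).factorization p), ?_, ?_⟩
    · rw [map_pow, pow_eq_pow_mod _ (show ρ g ^ 4 = 1 by rw [← map_pow]; exact h4)]
      have : p ^ (2 * (orderOf g).factorization p) % 4 = 1 := by
        rw [hp, pow_mul, Nat.pow_mod]
        norm_num
      rw [this, pow_one]
    · rw [two_mul, pow_add, pow_mul]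
      refine Nat.Coprime.coprime_dvd_left (orderOf_pow_dvd _) ?_
      rw [orderOf_pow_of_dvd (pow_ne_zero _ (Fact.out : p.Prime).ne_zero) (Nat.ordProj_dvd _ _)]
      exact (Nat.coprime_ordCompl Fact.out (orderOf_pos g).ne').symm
  let ρu := ρ.toHomUnits
  obtain ⟨di, hdi, hdic⟩ := hlift i₀ hh₀
  obtain ⟨dj, hdj, hdjc⟩ := hlift j₀ hjj
  -- the commutator form
  have e1 : ∀ g u v : G, g * ⁅u, v⁆ * g⁻¹ = ⁅g * u * g⁻¹, g * v * g⁻¹⁆ := fun g u v => by
    simp [commutatorElement_def, mul_assoc]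
  have hbl : ∀ u ∈ Q, ∀ u' ∈ Q, ∀ v ∈ Q, ⁅u * u', v⁆ = ⁅u, v⁆ * ⁅u', v⁆ ∧
      ⁅v, u * u'⁆ = ⁅v, u⁆ * ⁅v, u'⁆ := by
    intro u hu u' hu' v hv
    have h1 := hNcent _ (hcommN u' hu' v hv) u hu
    have h2 := hNcent _ (hcommN u' hu' v hv) _ (hNQ (hcommN u hu v hv))
    have h3 := hNcent _ (hcommN v hv u' hu') u hu
    constructor
    · calc ⁅u * u', v⁆ = u * ⁅u', v⁆ * u⁻¹ * ⁅u, v⁆ := by simp [commutatorElement_def, mul_assoc]
        _ = ⁅u', v⁆ * ⁅u, v⁆ := by rw [← h1, mul_inv_cancel_right]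
        _ = _ := h2
    · calc ⁅v, u * u'⁆ = ⁅v, u⁆ * (u * ⁅v, u'⁆ * u⁻¹) := by simp [commutatorElement_def, mul_assoc]
        _ = _ := by rw [← h3, mul_inv_cancel_right]
  have hrep : ∀ u v : Q, m u = m v → ∀ w : Q, ⁅(u : G), (w : G)⁆ = ⁅(v : G), (w : G)⁆ ∧
      ⁅(w : G), (u : G)⁆ = ⁅(w : G), (v : G)⁆ := by
    intro u v huv w
    have hd : ((u * v⁻¹ : Q) : G) ∈ N := by
      refine (hm0 _).1 ?_
      have := hmmul (u * v⁻¹) v
      rw [inv_mul_cancel_right, huv] at this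
      exact right_eq_add.1 this
    have hcc : ∀ φ ∈ N, ∀ z ∈ Q, ⁅φ, z⁆ = 1 ∧ ⁅z, φ⁆ = 1 := fun φ hφ z hz =>
      ⟨commutatorElement_eq_one_iff_mul_comm.2 (hNcent φ hφ z hz),
        commutatorElement_eq_one_iff_mul_comm.2 (hNcent φ hφ z hz).symm⟩
    have := hbl _ (hNQ hd) v v.2 w w.2
    rw [(hcc _ hd w w.2).1, (hcc _ hd w w.2).2, one_mul, one_mul,
      show ((u * v⁻¹ : Q) : G) * (v : G) = (u : G) by simp] at this
    exact this
  obtain ⟨β, hβ⟩ : ∃ β : Additive W → Additive W → G, ∀ u v : Q, β (m u) (m v) = ⁅(u : G), (v : G)⁆ := by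
    refine ⟨fun y z => ⁅((hmsurj y).choose : G), ((hmsurj z).choose : G)⁆, fun u v => ?_⟩
    exact ((hrep _ u (hmsurj (m u)).choose_spec _).1).trans ((hrep _ v (hmsurj (m v)).choose_spec u).2)
  have hβmem : ∀ y z, β y z ∈ N := fun y z => by
    obtain ⟨u, rfl⟩ := hmsurj y; obtain ⟨v, rfl⟩ := hmsurj z
    rw [hβ]; exact hcommN _ u.2 _ v.2
  have hβl : ∀ y y' z, β (y + y') z = β y z * β y' z := fun y y' z => by
    obtain ⟨u, rfl⟩ := hmsurj y; obtain ⟨u', rfl⟩ := hmsurj y'; obtain ⟨v, rfl⟩ := hmsurj z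
    rw [← hmmul, hβ, hβ, hβ]; exact (hbl _ u.2 _ u'.2 _ v.2).1
  have hβr : ∀ y z z', β y (z + z') = β y z * β y z' := fun y z z' => by
    obtain ⟨u, rfl⟩ := hmsurj y; obtain ⟨v, rfl⟩ := hmsurj z; obtain ⟨v', rfl⟩ := hmsurj z'
    rw [← hmmul, hβ, hβ, hβ]; exact (hbl _ v.2 _ v'.2 _ u.2).2
  have hβneg : ∀ y z, β y (-z) = (β y z)⁻¹ := fun y z => by
    have h0 : β y 0 = 1 := by
      have := hβr y 0 0
      rw [add_zero] at this
      exact left_eq_mul.1 this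
    have := hβr y z (-z)
    rw [add_neg_cancel, h0] at this
    exact eq_inv_of_mul_eq_one_right this.symm
  have hinv : ∀ d : Y, (orderOf d).Coprime p → ∀ y z, β (ρ d y) (ρ d z) = β y z := by
    intro d hd y z
    obtain ⟨u, rfl⟩ := hmsurj y; obtain ⟨v, rfl⟩ := hmsurj z
    rw [hρ, hρ, hβ, hβ]
    show ⁅(d : G) * u * (d : G)⁻¹, (d : G) * v * (d : G)⁻¹⁆ = _
    rw [← e1]
    exact hNfix _ (hcommN _ u.2 _ v.2) d d.2 (by rwa [Subgroup.orderOf_coe])
  have hmix : ∀ s ∈ S, ∀ u ∈ S, β (ρ i₀ s) u = (β s (ρ i₀ u))⁻¹ := by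
    intro s hs u hu
    have := hinv di hdic s (ρ i₀ u)
    rw [hdi, hdec u hu, hβneg] at this
    exact inv_eq_iff_eq_inv.1 this
  have hzero : ∀ s ∈ S, ∀ u ∈ S, β s u = 1 := by
    intro s hs u hu
    have := hinv dj hdjc s u
    rw [hdj, (hSact s hs).2.2.2.1, (hSact u hu).2.2.2.1, hβl, hβr, hβr, hmix s hs u hu,
      show β (ρ i₀ s) (ρ i₀ u) = β s u by rw [← hdi]; exact hinv di hdic s u] at this
    have hc := hNcent _ (hβmem s u) _ (hNQ (hβmem s (ρ i₀ u)))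
    have h2 : β s u * β s u = β s u := by
      rw [← mul_assoc, mul_inv_cancel_right] at this
      exact this
    exact mul_eq_left.1 h2
  have hQc : ∀ q ∈ Q, ∀ r ∈ Q, (c₀ : G) * ⁅q, r⁆ * (c₀ : G)⁻¹ = ⁅q, r⁆ := by
    intro q hq r hr
    rw [e1, ← hβ ⟨q, hq⟩ ⟨r, hr⟩, show ⁅(c₀ : G) * q * (c₀ : G)⁻¹, (c₀ : G) * r * (c₀ : G)⁻¹⁆ =
      β (ρ c₀ (m ⟨q, hq⟩)) (ρ c₀ (m ⟨r, hr⟩)) from (hβ (cj c₀ ⟨q, hq⟩) (cj c₀ ⟨r, hr⟩)).symm]
    obtain ⟨s, hs, u, hu, e⟩ := hSsp (m ⟨q, hq⟩)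
    obtain ⟨s', hs', u', hu', e'⟩ := hSsp (m ⟨r, hr⟩)
    rw [e, e', map_add, map_add, (hSact s hs).1, (hSact s' hs').1, (hSact u hu).2.1, (hSact u' hu').2.1]
    simp only [hβl, hβr, hzero s hs u' hu', hzero u hu s' hs', hzero u hu u' hu', hzero s hs s' hs',
      hmix u hu u' hu', hmix u hu s' hs', mul_one, one_mul]
    group
  -- an element inverting the module
  set h₀ := i₀ * i₀ with hh₀def
  set t := h₀ ^ p ^ (orderOf h₀).factorization p with ht
  have htc : (orderOf t).Coprime p := by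
    rw [ht, orderOf_pow_of_dvd (pow_ne_zero _ (Fact.out : p.Prime).ne_zero) (Nat.ordProj_dvd _ _)]
    exact (Nat.coprime_ordCompl Fact.out (orderOf_pos h₀).ne').symm
  have htneg : ∀ y, ρ t y = -y := by
    have : ∀ n : ℕ, Odd n → ∀ y, ρ (h₀ ^ n) y = -y := by
      intro n hn y
      obtain ⟨j, rfl⟩ := hn
      induction j generalizing y with
      | zero => simpa using hh₀ y
      | succ j ih =>
        rw [show 2 * (j + 1) + 1 = (2 * j + 1) + 1 + 1 by ring, pow_succ, pow_succ, map_mul, map_mul]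
        show ρ (h₀ ^ (2 * j + 1)) (ρ h₀ (ρ h₀ y)) = -y
        rw [hh₀ (ρ h₀ y), hh₀ y, neg_neg]
        exact ih y
    exact this _ (((Fact.out : p.Prime).odd_of_ne_two (by omega)).pow)
  have htN : ∀ n ∈ N, (t : G) * n * (t : G)⁻¹ = n := fun n hn =>
    hNfix n hn t t.2 (by rw [Subgroup.orderOf_coe]; exact htc)
  let ψ : Y →* MulAut Q := Q.normalizerMonoidHom.comp (Subgroup.inclusion hQY)
  have hψ : ∀ (h : Y) (q : Q), ((ψ h q : Q) : G) = (h : G) * q * (h : G)⁻¹ := fun _ _ => rfl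
  set Kb := ρu.ker.map ψ with hKb
  have hKbp : IsPGroup p Kb := by
    rintro ⟨_, k, hk, rfl⟩
    obtain ⟨j, hj⟩ : ∃ j : ℕ, ψ (k ^ p ^ j) = 1 := by
      refine ⟨(orderOf k).factorization p, MulEquiv.ext fun q => Subtype.ext ?_⟩
      set c := k ^ p ^ (orderOf k).factorization p with hc
      have hcc : (orderOf (c : G)).Coprime p := by
        rw [Subgroup.orderOf_coe, hc,
          orderOf_pow_of_dvd (pow_ne_zero _ (Fact.out : p.Prime).ne_zero) (Nat.ordProj_dvd _ _)]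
        exact (Nat.coprime_ordCompl Fact.out (orderOf_pos k).ne').symm
      show (c : G) * q * (c : G)⁻¹ = q
      refine H61.coprime_centralizes (W := Q) (hP.to_le (hNQ.trans hQP)) hcc
        (fun v hv => hNfix v hv c c.2 hcc) (fun w hw => ?_) q q.2
      have hck : c ∈ ρu.ker := pow_mem hk _
      have h1 : ρ c = 1 := congrArg Units.val (MonoidHom.mem_ker.1 hck)
      have h2 := hρeq c 1 (by rw [h1, map_one]) w hw
      simp only [OneMemClass.coe_one, one_mul, inv_one, mul_one] at h2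
      have h3 := hQnN w⁻¹ (Q.inv_mem hw) _ h2
      simpa [mul_assoc] using h3
    exact ⟨j, Subtype.ext (by show ψ k ^ p ^ j = 1; rw [← map_pow]; exact hj)⟩
  let G0 : Subgroup Y := (centralizer ({ψ t} : Set (MulAut Q))).comap ψ
  have hG0 : ∀ x : Y, ∃ x0 ∈ G0, ρ x0 = ρ x := by
    intro x
    obtain ⟨jb, hjb⟩ := hKbp.exists_card_eq
    have hmem : ψ (x * t * x⁻¹) * (ψ t)⁻¹ ∈ Kb := by
      refine ⟨x * t * x⁻¹ * t⁻¹, MonoidHom.mem_ker.2 (Units.ext ?_), by rw [map_mul, map_inv]⟩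
      show ρ (x * t * x⁻¹ * t⁻¹) = 1
      refine AddMonoidHom.ext fun y => ?_
      have ht' : ∀ z, ρ t⁻¹ z = -z := fun z => by
        have h1 : ρ t⁻¹ (ρ t z) = z := by
          show (ρ t⁻¹ * ρ t) z = z
          rw [← map_mul, inv_mul_cancel, map_one]; rfl
        rw [htneg, map_neg] at h1
        exact neg_eq_iff_eq_neg.1 h1
      have hx' : ∀ z, ρ x (ρ x⁻¹ z) = z := fun z => by
        show (ρ x * ρ x⁻¹) z = z
        rw [← map_mul, mul_inv_cancel, map_one]; rfl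
      rw [map_mul, map_mul, map_mul]
      show ρ x (ρ t (ρ x⁻¹ (ρ t⁻¹ y))) = y
      rw [ht', map_neg, map_neg, htneg, neg_neg]
      exact hx' y
    obtain ⟨κ, ⟨k, hk, rfl⟩, hκ⟩ := H56.exists_conj_of_coset_of_coprime (orderOf t) Kb (ψ t) (ψ (x * t * x⁻¹))
      (by
        refine mem_normalizer_iff.2 fun w => ⟨?_, ?_⟩
        · rintro ⟨k, hk, rfl⟩
          exact ⟨t * k * t⁻¹, (inferInstance : ρu.ker.Normal).conj_mem k hk t, by simp⟩
        · rintro ⟨k, hk, he⟩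
          refine ⟨t⁻¹ * k * t, by simpa using (inferInstance : ρu.ker.Normal).conj_mem k hk t⁻¹, ?_⟩
          rw [map_mul, map_mul, map_inv, he]; group)
      (by rw [← map_pow, pow_orderOf_eq_one, map_one])
      (by rw [← map_pow, conj_pow, pow_orderOf_eq_one, mul_one, mul_inv_cancel, map_one])
      hmem (by rw [hjb]; exact htc.pow_right jb)
    refine ⟨k * x, mem_centralizer_singleton_iff.2 ?_, ?_⟩
    · have e : ψ (k * x) * ψ t * (ψ (k * x))⁻¹ = ψ t := by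
        conv_rhs => rw [← hκ]
        simp only [map_mul, map_inv]
        group
      exact mul_inv_eq_iff_eq_mul.1 e
    · have : ρ k = 1 := congrArg Units.val (MonoidHom.mem_ker.1 hk)
      rw [map_mul, this, one_mul]
  have hG0c : ∀ x ∈ G0, ∀ q ∈ Q, (x : G) * ((t : G) * q * (t : G)⁻¹) * (x : G)⁻¹ =
      (t : G) * ((x : G) * q * (x : G)⁻¹) * (t : G)⁻¹ := by
    intro x hx q hq
    have h1 := mem_centralizer_singleton_iff.1 (show ψ x ∈ centralizer ({ψ t} : Set (MulAut Q)) from hx)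
    exact congrArg Subtype.val (DFunLike.congr_fun h1 ⟨q, hq⟩)
  obtain ⟨x0, hx0, hx0e⟩ := hG0 c₀
  set x := (x0 : G) with hxdef
  have hQ' : ∀ q ∈ Q, ∀ r ∈ Q, x * ⁅q, r⁆ * x⁻¹ = ⁅q, r⁆ := by
    intro q hq r hr
    rw [e1, ← hQc q hq r hr, e1]
    exact (((hrep (cj x0 ⟨q, hq⟩) (cj c₀ ⟨q, hq⟩) (by rw [← hρ, ← hρ, hx0e]) (cj x0 ⟨r, hr⟩)).1).trans
      (hrep (cj x0 ⟨r, hr⟩) (cj c₀ ⟨r, hr⟩) (by rw [← hρ, ← hρ, hx0e]) (cj c₀ ⟨q, hq⟩)).2)
  -- the subgroup inverted by `t`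
  set A := closure {z : G | ∃ q ∈ Q, z = ⁅(t : G), q⁆} with hA
  have hAQ : A ≤ Q := (closure_le _).2 (by
    rintro _ ⟨q, hq, rfl⟩
    exact mul_mem (hconjQ _ t.2 q hq) (Q.inv_mem hq))
  have hG0A : ∀ h ∈ G0, (h : G) ∈ normalizer (A : Set G) := by
    have hfwd : ∀ h ∈ G0, ∀ z ∈ A, (h : G) * z * (h : G)⁻¹ ∈ A := by
      intro h hh z hz
      suffices A.map (MulAut.conj (h : G)).toMonoidHom ≤ A from this ⟨z, hz, rfl⟩
      rw [hA, MonoidHom.map_closure, closure_le]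
      rintro _ ⟨_, ⟨q, hq, rfl⟩, rfl⟩
      refine subset_closure ⟨(h : G) * q * (h : G)⁻¹, hconjQ _ h.2 q hq, ?_⟩
      show (h : G) * ⁅(t : G), q⁆ * (h : G)⁻¹ = _
      rw [commutatorElement_def, commutatorElement_def]
      have e := hG0c h hh q hq
      calc (h : G) * ((t : G) * q * (t : G)⁻¹ * q⁻¹) * (h : G)⁻¹
          = ((h : G) * ((t : G) * q * (t : G)⁻¹) * (h : G)⁻¹) * ((h : G) * q * (h : G)⁻¹)⁻¹ := by group
        _ = _ := by rw [e]
    intro h hh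
    refine mem_normalizer_iff.2 fun z => ⟨hfwd h hh z, fun hz => ?_⟩
    have := hfwd h⁻¹ (G0.inv_mem hh) _ hz
    simpa [mul_assoc] using this
  -- `x` is quadratic on `A`
  set δ : G → G := fun u => x * u * x⁻¹ * u⁻¹ with hδ
  have hδQ : ∀ u ∈ Q, δ u ∈ Q := fun u hu => mul_mem (hconjQ _ x0.2 u hu) (Q.inv_mem hu)
  have hδmul : ∀ u v : G, δ (u * v) = δ u * (u * δ v * u⁻¹) := fun u v => by simp [hδ, mul_assoc]
  have hδc : ∀ q ∈ Q, ∀ r ∈ Q, δ ⁅q, r⁆ = 1 := fun q hq r hr => by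
    simp only [hδ]; rw [hQ' q hq r hr, mul_inv_cancel]
  have hffN : ∀ q ∈ Q, δ (δ q) ∈ N := by
    intro q hq
    have h2 := qc (m ⟨q, hq⟩)
    rw [← hx0e, hkey, ← sub_eq_zero, hkey, hm0] at h2
    exact h2
  have hff : ∀ q ∈ Q, ∀ r ∈ Q, δ (δ (q * r)) = δ (δ q) * δ (δ r) := by
    intro q hq r hr
    have e1 : δ (q * r) = δ q * (⁅q, δ r⁆ * δ r) := by
      rw [hδmul, commutatorElement_def]; group
    have e2 : δ (⁅q, δ r⁆ * δ r) = δ (δ r) := by
      rw [hδmul, hδc q hq _ (hδQ r hr), one_mul,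
        hNcent _ (hcommN q hq _ (hδQ r hr)) _ (hδQ _ (hδQ r hr)), mul_inv_cancel_right]
    rw [e1, hδmul, e2, ← hNcent _ (hffN r hr) _ (hδQ q hq), mul_inv_cancel_right]
  have hft : ∀ q ∈ Q, δ (δ ((t : G) * q * (t : G)⁻¹)) = δ (δ q) := by
    have e : ∀ q ∈ Q, δ ((t : G) * q * (t : G)⁻¹) = (t : G) * δ q * (t : G)⁻¹ := by
      intro q hq
      simp only [hδ, hxdef]
      rw [hG0c x0 hx0 q hq]
      group
    intro q hq
    rw [e q hq, e _ (hδQ q hq), htN _ (hffN q hq)]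
  have hA0 : ∀ z ∈ A, δ (δ z) = 1 := by
    have hone : δ (δ 1) = 1 := by simp [hδ]
    let Kf : Subgroup G :=
      { carrier := {z | z ∈ Q ∧ δ (δ z) = 1}
        one_mem' := ⟨one_mem Q, hone⟩
        mul_mem' := fun {u v} hu hv => ⟨mul_mem hu.1 hv.1, by rw [hff u hu.1 v hv.1, hu.2, hv.2, mul_one]⟩
        inv_mem' := fun {u} hu => ⟨Q.inv_mem hu.1, by
          have := hff u hu.1 u⁻¹ (Q.inv_mem hu.1)
          rw [mul_inv_cancel, hone, hu.2, one_mul] at this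
          exact this.symm⟩ }
    suffices A ≤ Kf from fun z hz => (this hz).2
    rw [hA, closure_le]
    rintro _ ⟨q, hq, rfl⟩
    refine ⟨mul_mem (hconjQ _ t.2 q hq) (Q.inv_mem hq), ?_⟩
    have h1 := hff ⁅(t : G), q⁆ (mul_mem (hconjQ _ t.2 q hq) (Q.inv_mem hq)) q hq
    rw [show ⁅(t : G), q⁆ * q = (t : G) * q * (t : G)⁻¹ by rw [commutatorElement_def]; group, hft q hq] at h1
    exact right_eq_mul.1 h1
  have hquadA : ⁅⁅A, zpowers x⁆, zpowers x⁆ = ⊥ := by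
    have hiter : ∀ (n : ℕ), ∀ q ∈ A, x ^ n * q * (x ^ n)⁻¹ = δ q ^ n * q := by
      intro n q hq
      have hfix : x * δ q * x⁻¹ = δ q := mul_inv_eq_one.1 (show x * δ q * x⁻¹ * (δ q)⁻¹ = 1 from hA0 q hq)
      induction n with
      | zero => simp
      | succ n ih =>
        rw [pow_succ' x, show x * x ^ n * q * (x * x ^ n)⁻¹ = x * (x ^ n * q * (x ^ n)⁻¹) * x⁻¹ by group, ih,
          show x * (δ q ^ n * q) * x⁻¹ = (x * δ q * x⁻¹) ^ n * (x * q * x⁻¹) by rw [conj_pow]; group, hfix,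
          show x * q * x⁻¹ = δ q * q by simp only [hδ]; group, pow_succ, ← mul_assoc]
    rw [commutator_eq_bot_iff_le_centralizer]
    rw [commutator_le]
    intro q hq g hg
    obtain ⟨n, rfl⟩ := (isOfFinOrder_of_finite x).mem_powers_iff_mem_zpowers.2 hg
    have e : ⁅q, x ^ n⁆ = (δ q ^ n)⁻¹ := by
      have h2 := hiter n q hq
      calc ⁅q, x ^ n⁆ = q * (x ^ n * q * (x ^ n)⁻¹)⁻¹ := by rw [commutatorElement_def]; group
        _ = _ := by rw [h2]; group
    rw [e]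
    refine Subgroup.inv_mem _ (pow_mem ?_ n)
    refine mem_centralizer_iff.2 fun z hz => ?_
    obtain ⟨j, rfl⟩ := hz
    have hfix : Commute x (δ q) := mul_inv_eq_iff_eq_mul.1
      (mul_inv_eq_one.1 (show x * δ q * x⁻¹ * (δ q)⁻¹ = 1 from hA0 q hq))
    exact (hfix.zpow_left j).eq
  obtain ⟨M, hxM, -, hNM, hMp⟩ := (H61.mk_mem_pCore_iff (hG0A x0 hx0)).1
    (hst A (hP.to_le (hAQ.trans hQP)) x (hG0A x0 hx0) hquadA)
  -- the image of `M` is a normal `p`-subgroup of an irreducible group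
  let M0 : Subgroup Y := G0 ⊓ M.comap Y.subtype
  have hM0p : IsPGroup p (M0.map ρu) := by
    rintro ⟨_, h, ⟨hh0, hhM⟩, rfl⟩
    obtain ⟨k, hk⟩ := hMp _ hhM
    refine ⟨k, Subtype.ext (Units.ext (AddMonoidHom.ext fun y => ?_))⟩
    show ((ρu h ^ p ^ k : (AddMonoid.End (Additive W))ˣ) : AddMonoid.End (Additive W)) y = y
    rw [← map_pow, show ((ρu (h ^ p ^ k) : (AddMonoid.End (Additive W))ˣ) : AddMonoid.End (Additive W)) =
      ρ (h ^ p ^ k) from rfl]
    -- `h ^ p ^ k` centralises `A`, which covers the module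
    set S : AddSubgroup (Additive W) :=
      { carrier := {y | ρ (h ^ p ^ k) y = y}
        zero_mem' := map_zero _
        add_mem' := fun {u v} hu hv => by
          show ρ _ (u + v) = u + v
          rw [map_add, show ρ _ u = u from hu, show ρ _ v = v from hv]
        neg_mem' := fun {u} hu => by
          show ρ _ (-u) = -u
          rw [map_neg, show ρ _ u = u from hu] } with hS
    suffices y ∈ S from this
    obtain ⟨q, rfl⟩ := hmsurj y
    have h1 : m ⟨⁅(t : G), (q : G)⁆, mul_mem (hconjQ _ t.2 _ q.2) (Q.inv_mem q.2)⟩ ∈ S := by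
      show ρ _ _ = _
      rw [hρ]
      refine congrArg m (Subtype.ext ?_)
      have hz : ⁅(t : G), (q : G)⁆ ∈ A := subset_closure ⟨q, q.2, rfl⟩
      show ((h ^ p ^ k : Y) : G) * ⁅(t : G), (q : G)⁆ * ((h ^ p ^ k : Y) : G)⁻¹ = ⁅(t : G), (q : G)⁆
      have hk' := mem_centralizer_iff.1 hk _ hz
      rw [SubmonoidClass.coe_pow, show (h : G) ^ p ^ k * ⁅(t : G), (q : G)⁆ = ⁅(t : G), (q : G)⁆ * (h : G) ^ p ^ k
        from hk'.symm, mul_inv_cancel_right]
    have h2 : m ⟨⁅(t : G), (q : G)⁆, mul_mem (hconjQ _ t.2 _ q.2) (Q.inv_mem q.2)⟩ = -(2 • m q) := by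
      have h3 : ρ t (m q) - m q = m (cj t q * q⁻¹) := hkey t q
      rw [htneg] at h3
      rw [show (⟨⁅(t : G), (q : G)⁆, mul_mem (hconjQ _ t.2 _ q.2) (Q.inv_mem q.2)⟩ : Q) = cj t q * q⁻¹ from rfl,
        ← h3]
      abel
    rw [h2, neg_mem_iff] at h1
    obtain ⟨j, hj⟩ : Odd p := (Fact.out : p.Prime).odd_of_ne_two (by omega)
    have h4 : m q = (j + 1) • (2 • m q) := by
      rw [← mul_nsmul', show (j + 1) * 2 = p + 1 by omega, succ_nsmul, hWp, zero_add]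
    rw [h4]
    exact nsmul_mem h1 _
  let Fix : AddSubgroup (Additive W) :=
    { carrier := {y | ∀ h ∈ M0, ρ h y = y}
      zero_mem' := fun h _ => map_zero _
      add_mem' := fun {u v} hu hv h hh => by rw [map_add, hu h hh, hv h hh]
      neg_mem' := fun {u} hu h hh => by rw [map_neg, hu h hh] }
  have hFixinv : ∀ g : Y, ∀ s ∈ Fix, ρ g s ∈ Fix := by
    intro g s hs h hh
    obtain ⟨g0, hg0, hge⟩ := hG0 g
    have hconj : g0⁻¹ * h * g0 ∈ M0 := by
      refine ⟨mul_mem (mul_mem (G0.inv_mem hg0) hh.1) hg0, ?_⟩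
      have := (mem_normalizer_iff.1 (hNM (Subgroup.inv_mem _ (hG0A g0 hg0))) (h : G)).1 hh.2
      show ((g0⁻¹ * h * g0 : Y) : G) ∈ M
      simpa using this
    rw [← hge]
    show ρ h (ρ g0 s) = ρ g0 s
    conv_rhs => rw [← hs _ hconj]
    show (ρ h * ρ g0) s = (ρ g0 * ρ (g0⁻¹ * h * g0)) s
    rw [← map_mul, ← map_mul]
    congr 2
    group
  rcases hirr Fix hFixinv with h0 | h1
  · -- fixed points of a `p`-group on a nontrivial `p`-group
    haveI : Finite (Additive W) := inferInstanceAs (Finite W)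
    letI : MulAction ↥(M0.map ρu) (Additive W) :=
      { smul := fun g y => ((g : (AddMonoid.End (Additive W))ˣ) : AddMonoid.End (Additive W)) y
        one_smul := fun y => rfl
        mul_smul := fun g h y => rfl }
    have hcard : p ∣ Nat.card (Additive W) := by
      have hne : Nontrivial (Additive W) := by
        refine ⟨?_⟩
        obtain ⟨q, hq, hqN⟩ := SetLike.exists_of_lt hNne
        exact ⟨m ⟨q, hq⟩, 0, fun h => hqN ((hm0 _).1 h)⟩
      obtain ⟨y, hy⟩ := exists_ne (0 : Additive W)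
      rw [← addOrderOf_eq_prime (hWp y) hy]
      exact addOrderOf_dvd_natCard y
    obtain ⟨y, hy, hy0⟩ := hM0p.exists_fixed_point_of_prime_dvd_card_of_fixed_point (Additive W) hcard
      (a := (0 : Additive W)) (fun g => map_zero _)
    have : y ∈ Fix := fun h hh => hy ⟨ρu h, h, hh, rfl⟩
    rw [h0, AddSubgroup.mem_bot] at this
    exact hy0 this.symm
  · refine hc1 ?_
    rw [← hx0e]
    refine AddMonoidHom.ext fun y => ?_
    exact (h1 ▸ AddSubgroup.mem_top y : y ∈ Fix) x0 ⟨hx0, hxM⟩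

/-- The key consequence of stability in the normalizer form, `p` odd. -/
theorem pGroup_of_quadratic_mod_fixed (hp : p ≠ 2) (hst : Cfsg.IsNormalizerPStable p G)
    {P V : Subgroup G} (hP : IsPGroup p P) {a b : G}
    (haP : a ∈ normalizer (P : Set G)) (hbP : b ∈ normalizer (P : Set G))
    (haV : ∀ v ∈ V, a * v * a⁻¹ = v) (hbV : ∀ v ∈ V, b * v * b⁻¹ = v)
    (hqa : ∀ x ∈ P, ⁅a, ⁅a, x⁆⁆ ∈ V) (hqb : ∀ x ∈ P, ⁅b, ⁅b, x⁆⁆ ∈ V) :
    ∀ y ∈ closure ({a, b} : Set G), ∃ k : ℕ, y ^ p ^ k ∈ centralizer (P : Set G) := by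
  have h2 := (Fact.out : p.Prime).two_le
  rcases eq_or_ne p 3 with h3 | h3
  · exact pGroup_of_quadratic_mod_fixed_three h3 hst hP haP hbP haV hbV hqa hqb
  · exact H60.pGroup_of_quadratic_mod_fixed (by omega) hst hP haP hbP haV hbV hqa hqb

end Cfsg.Agent.H34
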