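import Cfsg.Agent.H34.StableQuadratic
import Cfsg.Agent.H60.StableQuotient
import Cfsg.Agent.H35.Sections
import Cfsg.Agent.H35.Quotient

/-!
Stability in the normalizer form (`p` odd): subgroups, quotients by central `p`-subgroups and by `p'`-subgroups,
and stability on normal `p`-subgroups.
-/

set_option autoImplicit false

namespace Cfsg.Agent.H34

open Subgroup
open scoped commutatorElement

variable {G X : Type*} [Group G] [Group X] [Finite G] {p : ℕ} [Fact p.Prime]

/-- Stable groups have quadratic pairs acting as `p`-groups. -/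
theorem quadPairs_of_stable (hp : p ≠ 2) (h : Cfsg.IsNormalizerPStable p G) : H60.QuadPairs p G :=
  fun P hP a ha b hb h1 h2 => pGroup_of_quadratic_mod_fixed hp h (V := ⊥) hP ha hb
    (fun v hv => by rw [mem_bot] at hv; simp [hv]) (fun v hv => by rw [mem_bot] at hv; simp [hv])
    (fun x hx => mem_bot.2 (h1 x hx)) (fun x hx => mem_bot.2 (h2 x hx))

/-- Subgroups inherit stability. -/
theorem stable_subgroup (hp : p ≠ 2) (h : Cfsg.IsNormalizerPStable p G) (H : Subgroup G) :
    Cfsg.IsNormalizerPStable p H := by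
  refine H60.stable_of_quadPairs fun P hP a ha b hb h1 h2 y hy => ?_
  have hmem : ∀ c : H, c ∈ normalizer (P : Set H) → (c : G) ∈ normalizer ((P.map H.subtype : Subgroup G) : Set G) :=
    fun c hc => le_normalizer_map (H := P) H.subtype ⟨c, hc, rfl⟩
  have hq : ∀ c : H, (∀ x ∈ P, ⁅c, ⁅c, x⁆⁆ = 1) →
      ∀ x ∈ P.map H.subtype, ⁅(c : G), ⁅(c : G), x⁆⁆ = 1 := by
    rintro c hc _ ⟨x, hx, rfl⟩
    exact congrArg Subtype.val (hc x hx)
  obtain ⟨k, hk⟩ := quadPairs_of_stable hp h _ (hP.map H.subtype) a (hmem a ha) b (hmem b hb)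
    (hq a h1) (hq b h2) y (by
      have := mem_map_of_mem H.subtype hy
      rwa [MonoidHom.map_closure, Set.image_pair] at this)
  exact ⟨k, mem_centralizer_iff.2 fun x hx => Subtype.ext (mem_centralizer_iff.1 hk x ⟨x, hx, rfl⟩)⟩

/-- Quotients by normal `p'`-subgroups inherit stability. -/
theorem stable_pPrime_quotient [Finite X] (hp : p ≠ 2) (h : Cfsg.IsNormalizerPStable p G)
    (f : G →* X) (hf : Function.Surjective f) (hker : (Nat.card f.ker).Coprime p) :
    Cfsg.IsNormalizerPStable p X := by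
  refine H60.stable_of_quadPairs fun P' hP' a ha b hb h1 h2 y hy => ?_
  obtain ⟨T⟩ : Nonempty (Sylow p (P'.comap f)) := inferInstance
  set P := (T : Subgroup (P'.comap f)).map (P'.comap f).subtype with hP
  have hPp : IsPGroup p P := T.2.map _
  have hfP : P.map f = P' := by
    have hg := (f.subgroupComap_surjective_of_surjective P' hf)
    have htop := (T.mapSurjective hg).3 (hP'.of_equiv Subgroup.topEquiv.symm) le_top
    have := congrArg (Subgroup.map P'.subtype) htop.symm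
    rw [Sylow.coe_mapSurjective, map_map, ← MonoidHom.range_eq_map, range_subtype] at this
    rw [hP, map_map]
    exact this
  rw [← hfP, ← H35.map_normalizer_eq f hf hker hPp] at ha hb
  obtain ⟨a, ha', rfl⟩ := ha
  obtain ⟨b, hb', rfl⟩ := hb
  have hq : ∀ c ∈ normalizer (P : Set G), (∀ x ∈ P', ⁅f c, ⁅f c, x⁆⁆ = 1) → ∀ x ∈ P, ⁅c, ⁅c, x⁆⁆ = 1 := by
    intro c hc h1 x hx
    have m1 : ∀ u ∈ P, ⁅c, u⁆ ∈ P := fun u hu =>
      mul_mem ((mem_normalizer_iff.1 hc u).1 hu) (P.inv_mem hu)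
    have h2 : ⁅c, ⁅c, x⁆⁆ ∈ P ⊓ f.ker := ⟨m1 _ (m1 x hx), by
      show f _ = 1
      rw [map_commutatorElement, map_commutatorElement]
      exact h1 _ (hfP ▸ mem_map_of_mem f hx)⟩
    rwa [H35.inf_eq_bot_of_coprime hPp hker, mem_bot] at h2
  obtain ⟨z, hz, rfl⟩ := H60.exists_lift_closure f hy
  obtain ⟨k, hk⟩ := quadPairs_of_stable hp h P hPp a ha' b hb' (hq a ha' h1) (hq b hb' h2) z hz
  refine ⟨k, mem_centralizer_iff.2 ?_⟩
  rw [← hfP]
  rintro _ ⟨x, hx, rfl⟩
  rw [← map_pow, ← map_mul, ← map_mul, mem_centralizer_iff.1 hk x hx]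

/-- Quotients by central `p`-subgroups inherit stability. -/
theorem stable_central_quotient [Finite X] (hp : p ≠ 2) (h : Cfsg.IsNormalizerPStable p G)
    (f : G →* X) (hf : Function.Surjective f) (hker : f.ker ≤ center G) (hkp : IsPGroup p f.ker) :
    Cfsg.IsNormalizerPStable p X := by
  refine H60.stable_of_quadPairs fun P' hP' a ha b hb h1 h2 y hy => ?_
  have hPp : IsPGroup p (P'.comap f) := hP'.comap_of_ker_isPGroup f hkp
  obtain ⟨a, rfl⟩ := hf a
  obtain ⟨b, rfl⟩ := hf b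
  have hn : ∀ c : G, f c ∈ normalizer (P' : Set X) → c ∈ normalizer ((P'.comap f : Subgroup G) : Set G) :=
    fun c hc => mem_normalizer_iff.2 fun x => by
      simp only [mem_comap, map_mul, map_inv]
      exact mem_normalizer_iff.1 hc (f x)
  have hq : ∀ c : G, (∀ x ∈ P', ⁅f c, ⁅f c, x⁆⁆ = 1) → ∀ x ∈ P'.comap f, ⁅c, ⁅c, x⁆⁆ ∈ f.ker := by
    intro c hc x hx
    rw [MonoidHom.mem_ker, map_commutatorElement, map_commutatorElement]
    exact hc _ hx
  have hfix : ∀ c : G, ∀ v ∈ f.ker, c * v * c⁻¹ = v := fun c v hv => by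
    rw [mem_center_iff.1 (hker hv) c, mul_inv_cancel_right]
  obtain ⟨z, hz, rfl⟩ := H60.exists_lift_closure f hy
  obtain ⟨k, hk⟩ := pGroup_of_quadratic_mod_fixed hp h hPp (hn a ha) (hn b hb) (hfix a) (hfix b)
    (hq a h1) (hq b h2) z hz
  refine ⟨k, mem_centralizer_iff.2 fun x hx => ?_⟩
  obtain ⟨x, rfl⟩ := hf x
  rw [← map_pow, ← map_mul, ← map_mul, mem_centralizer_iff.1 hk x hx]

/-- Stability in the normalizer form gives stability on normal `p`-subgroups. -/
theorem isPStableOn_of_stable (hp : p ≠ 2) (h : Cfsg.IsNormalizerPStable p G) (V : Subgroup G) [V.Normal]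
    (hV : IsPGroup p V) : Cfsg.IsPStableOn p V := by
  intro a ha
  refine H35.mk_mem_pCore_of_forall _ a fun c z hz => ?_
  have hmem : ∀ x : G, x ∈ normalizer (V : Set G) := fun x => (normalizer_eq_top V).symm ▸ mem_top x
  have hq : ∀ x ∈ V, ⁅a, ⁅a, x⁆⁆ = 1 := fun x hx => H35.commutatorElement_quadratic ha (mem_zpowers a) hx
  refine quadPairs_of_stable hp h V hV a (hmem a) _ (hmem _) hq (fun x hx => ?_) z hz
  have e : ⁅c * a * c⁻¹, ⁅c * a * c⁻¹, x⁆⁆ = c * ⁅a, ⁅a, c⁻¹ * x * c⁆⁆ * c⁻¹ := by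
    simp [commutatorElement_def, mul_assoc]
  rw [e, hq _ (by simpa using (inferInstance : V.Normal).conj_mem x hx c⁻¹)]
  simp

end Cfsg.Agent.H34
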