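import Cfsg.Agent.H19.Cores
import Mathlib.GroupTheory.IsSubnormal
import Mathlib.GroupTheory.GroupAction.ConjAct

/-! Subnormal `p`-subgroups. -/

set_option autoImplicit false

namespace Cfsg.Agent.H34

open Subgroup
open Cfsg

variable {G : Type*} [Group G] [Finite G] {p : ℕ} [Fact p.Prime]

/-- A subnormal `p`-subgroup lies in `O_p(G)`. -/
theorem le_pCore_of_isSubnormal {P : Subgroup G} (hP : P.IsSubnormal) (hp : IsPGroup p P) :
    P ≤ pCore p G := by
  suffices h : (pCore p ↥P).map P.subtype ≤ pCore p G by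
    have : pCore p ↥P = ⊤ :=
      top_unique (H19.le_pCore inferInstance (hp.of_equiv Subgroup.topEquiv.symm))
    rwa [this, ← MonoidHom.range_eq_map, range_subtype] at h
  clear hp
  induction hP with
  | top =>
    rw [map_le_iff_le_comap]
    have h := H19.map_pCore_le (p := p) (⊤ : Subgroup G)
    exact map_le_iff_le_comap.1 h
  | step H K hle _ hN ih =>
    refine le_trans ?_ ih
    have hchar := H19.pCore_characteristic p ↥(H.subgroupOf K)
    have hn : ((pCore p ↥(H.subgroupOf K)).map (H.subgroupOf K).subtype).Normal :=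
      ConjAct.normal_of_characteristic_of_normal
    have h1 := H19.le_pCore hn ((H19.pCore_isPGroup p).map _)
    refine le_trans ?_ (Subgroup.map_mono h1)
    intro x hx
    obtain ⟨y, hy, rfl⟩ := hx
    let e : H ≃* H.subgroupOf K := (subgroupOfEquivOfLe hle).symm
    have hmap : (pCore p ↥H).map e.toMonoidHom ≤ pCore p ↥(H.subgroupOf K) :=
      H19.le_pCore ((H19.pCore_normal p _).map _ e.surjective) ((H19.pCore_isPGroup p).map _)
    exact ⟨(e y).1, ⟨e y, hmap (mem_map_of_mem _ hy), rfl⟩, rfl⟩

end Cfsg.Agent.H34
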